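import Cfsg.Agent.H42.FvDefs

/-! Closed sets of positive roots: the root subgroups keep the support and the Cartan part. -/

set_option autoImplicit false

namespace Cfsg.Agent.H34.FvS

open Equiv Cfsg.Lie H37 H40 H29 Module H50.E83 H42.Fv
open scoped Matrix

theorem stab (ent : EntStmt) : StabStmt := by
  intro F _ A hA hc y hy
  obtain ⟨cf, h1, h2⟩ := ent
  refine Split.U_ind_left (by rw [ac_one]; exact ⟨hy, rfl⟩) ?_
  rintro r hr x hx g - ⟨i1, i2⟩
  obtain ⟨t, rfl⟩ := Cert.mem_X.1 hx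
  have e : ac F (C8.xg F r t * g) y = xR F r t *ᵥ ac F g y := by rw [ac_mul, ← xg_eq]; rfl
  have h0 : ac F g y (Sum.inr (C8.R.neg r)) = 0 := by
    by_contra h
    exact (C8.R.pos_neg_iff r).1 (hA (i1 _ h)) (hA hr)
  rw [e, ← i2]
  refine ⟨fun s hs => ?_, funext fun i => ?_⟩
  · by_contra hs'
    apply hs
    rw [(h2 F r t _).2, if_neg (fun h => hs' (by rw [h]; exact hr)), add_zero,
      not_not.1 fun h => hs' (i1 s h), zero_add]
    refine Finset.sum_eq_zero fun s' _ => ?_
    by_cases h : cf r s' s = 0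
    · rw [h, Int.cast_zero, zero_mul, zero_mul]
    · rw [not_not.1 fun h' => hs' (hc r hr s' (i1 s' h') s (h1 _ _ _ h)), mul_zero]
  · rcases i with i | i
    · exact ((h2 F r t _).1 i).trans (by rw [h0, mul_zero, zero_mul, add_zero]; rfl)
    · rfl

end Cfsg.Agent.H34.FvS
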