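import Cfsg.Agent.H45.GdDefs
import Cfsg.Agent.S0199

/-! Project CY, pieces A2 and ALL of the mixed system. -/

set_option autoImplicit false
set_option linter.unusedVariables false

namespace Cfsg.Agent.H34.CyA2

open Subgroup MulAction Cfsg.Agent.H11.Cy Cfsg.Agent.H45.Iv Cfsg.Agent.H45.Gd
open scoped commutatorElement

theorem dih {G : Type*} [Group G] {z t : G} (z2 : z * z = 1) (t2 : t * t = 1)
    (h : (z * t) ^ 4 * (z * t) ^ 4 = 1) :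
    z * (z * t) ^ 4 = (z * t) ^ 4 * z ∧ t * (z * t) ^ 4 = (z * t) ^ 4 * t := by
  have zi : z⁻¹ = z := inv_eq_of_mul_eq_one_right z2
  have ti : t⁻¹ = t := inv_eq_of_mul_eq_one_right t2
  have ei : ((z * t) ^ 4)⁻¹ = (z * t) ^ 4 := inv_eq_of_mul_eq_one_right h
  have h1 : z * (z * t) * z⁻¹ = (z * t)⁻¹ := by
    rw [← mul_assoc, z2, one_mul, mul_inv_rev, ti]
  have h2 : t * (z * t) * t⁻¹ = (z * t)⁻¹ := by
    rw [mul_assoc, mul_inv_cancel_right, mul_inv_rev, ti, zi]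
  constructor
  · rw [← mul_inv_eq_iff_eq_mul, ← conj_pow, h1, inv_pow, ei]
  · rw [← mul_inv_eq_iff_eq_mul, ← conj_pow, h2, inv_pow, ei]

theorem a2 : A2Stmt := by
  intro hS G _ _ Ω _ _ p A h k hy a1 Ψ hΨ hE y hyΨ x hx r hr hrz hr2
  have hyx : y ≠ x := fun e => hx (e ▸ hyΨ)
  obtain ⟨la, lb, lc, -⟩ := h.ls y x hyx
  obtain ⟨⟨z, hz⟩, hz1⟩ := ne_bot_iff_exists_ne_one.1 hE
  have z1 : z ≠ 1 := fun e => hz1 (Subtype.ext e)
  have z2 : z * z = 1 := (k.gd Ψ hΨ).2.1 z hz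
  have hA : A y ≠ ⊥ := fun e => by
    have := h.bs.card y
    rw [e, card_bot] at this
    exact h.bs.pp.one_lt.ne this
  obtain ⟨⟨a, ha⟩, ha1⟩ := ne_bot_iff_exists_ne_one.1 hA
  have a1' : a ≠ 1 := fun e => ha1 (Subtype.ext e)
  obtain ⟨s, hs, hw⟩ := lc.surj a ha a1' r hr
  have RF : Rl A y x ≤ Fl A y x := commutator_le_self _
  have aF : a ∈ Fl A y x := mem_sup_left ha
  set b := s * a * s⁻¹ with hb
  have hbA : b ∈ A (s • y) := h.bs.eqv s y a ha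
  have b1 : b ≠ 1 := fun e => a1' (by
    have : a = s⁻¹ * b * s := by rw [hb]; group
    rw [this, e]; group)
  -- the point `s y` is on the line, off `Ψ`
  have hl : s • y ∈ Ln A y x := by
    intro c hc
    have h1 := h.bs.eqv s⁻¹ _ c hc
    rw [inv_smul_smul] at h1
    have h2 := mul_mem (mul_mem (RF hs) (mem_sup_left h1 : _ ∈ Fl A y x)) (inv_mem (RF hs))
    simpa [mul_assoc] using h2
  have hne : y ≠ s • y := by
    intro e
    have h1 := lb.stab s hs y (h.sk.ln y x).1 e.symm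
    have h2 : ⁅a, s⁆ = 1 :=
      commutatorElement_eq_one_iff_mul_comm.2 (mem_centralizer_iff.1 h1.2 a aF)
    rw [h2, mul_one] at hw
    exact hrz ((inv_mem_iff).1 hw)
  have hx' : s • y ∉ Ψ := by
    intro e
    have h1 := hΨ.1 y hyΨ _ e hne
    rw [(h.sk.sp y x hyx y (h.sk.ln y x).1 _ hl hne).2.2] at h1
    exact hx (h1 (h.sk.ln y x).2)
  -- `τ = b a⁻¹` is an involution
  have t2 : ⁅a, s⁆ * ⁅a, s⁆ = 1 := by
    have c := mem_centralizer_iff.1 hw.2 r (RF hr)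
    calc _ = r * (r⁻¹ * ⁅a, s⁆ * r) * (r⁻¹ * ⁅a, s⁆) := by group
      _ = (r * r) * ((r⁻¹ * ⁅a, s⁆) * (r⁻¹ * ⁅a, s⁆)) := by rw [← c]; group
      _ = 1 := by rw [hr2, lc.zsq _ hw, one_mul]
  have τ2 : (b * a⁻¹) * (b * a⁻¹) = 1 := by
    have : b * a⁻¹ = ⁅a, s⁆⁻¹ := by rw [hb, commutatorElement_def]; group
    rw [this, ← mul_inv_rev, t2, inv_one]
  have za : a * z = z * a := mem_centralizer_iff.1 ((h.sk.cs Ψ z).1 hz.2 y hyΨ) a ha
  have zi : z⁻¹ = z := inv_eq_of_mul_eq_one_right z2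
  have τi : (b * a⁻¹)⁻¹ = b * a⁻¹ := inv_eq_of_mul_eq_one_right τ2
  set w := z * (b * z * b⁻¹) with hwd
  have e1 : w = z * (b * a⁻¹) * z * (b * a⁻¹) := by
    calc w = z * b * (a⁻¹ * (a * z)) * b⁻¹ := by rw [hwd]; group
      _ = z * (b * a⁻¹) * z * (b * a⁻¹)⁻¹ := by rw [za]; group
      _ = _ := by rw [τi]
  have wi : w⁻¹ = (b * z * b⁻¹) * z := by
    calc w⁻¹ = b * z⁻¹ * b⁻¹ * z⁻¹ := by rw [hwd]; group
      _ = _ := by rw [zi]
  have w2 : w * w ≠ 1 := fun e =>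
    a1 Ψ hΨ z hz z1 _ hx' b hbA b1 ((inv_eq_of_mul_eq_one_right e).symm.trans wi)
  obtain ⟨hm, r1, hr1, -, hk⟩ := hS G Ω p A h k Ψ hΨ z hz z1 _ hx'
  have bF : b ∈ Fl A (s • y) (z • s • y) := mem_sup_left hbA
  have wR : w ∈ Rl A (s • y) (z • s • y) := by
    have c := mem_centralizer_iff.1 hk b bF
    have e : w = ⁅r1, b⁆ := by
      calc w = z * b * z⁻¹ * b⁻¹ := by rw [hwd, zi]; group
        _ = r1 * (r1⁻¹ * z * b) * (r1⁻¹ * z)⁻¹ * r1⁻¹ * b⁻¹ := by group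
        _ = _ := by rw [← c, commutatorElement_def]; group
    rw [e]
    exact commutator_mem_commutator (commutator_le_self _ hr1) bF
  obtain ⟨-, lb', lc', -⟩ := h.ls _ _ (Ne.symm hm)
  have eZ := lb'.sq w wR
  have e2 := lc'.zsq _ eZ
  have e4 : w * w = (z * (b * a⁻¹)) ^ 4 := by
    rw [e1]
    simp only [pow_succ, pow_zero, one_mul, mul_assoc]
  obtain ⟨ez, eτ⟩ := dih z2 τ2 (by rw [← e4]; exact e2)
  rw [← e4] at ez eτ
  have eb : b * (w * w) = (w * w) * b := mem_centralizer_iff.1 eZ.2 b bF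
  have ea : a * (w * w) = (w * w) * a := by
    have c1 : Commute (b * a⁻¹) (w * w) := eτ
    have c2 : Commute b (w * w) := eb
    have := c1.inv_left.mul_left c2
    rwa [show (b * a⁻¹)⁻¹ * b = a by group] at this
  have ey : (w * w) • y = y := by
    refine (h.bs.semi y _ a ha ?_).resolve_left a1'
    rw [← mul_smul, ea, mul_smul, h.bs.fix y a ha]
  obtain ⟨Φ, hΦ, hL⟩ := k.two _ _ (Ne.symm hm)
  have x1 := hL (h.sk.ln (s • y) (z • s • y)).1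
  have eE := k.ze Φ hΦ _ x1 _ (hL (h.sk.ln (s • y) (z • s • y)).2) (Ne.symm hm) eZ
  exact hy Ψ Φ hΨ hΦ (fun e => hx' (e ▸ x1)) z hz z1 _ eE w2 ez y hyΨ
    ((k.fx Φ hΦ _ eE w2 y).1 ey)

theorem al : AlStmt := by
  intro G _ _ Ω _ _ p A h k d0 a2 x y hxy r hr hrz hr2
  have big : ∀ Ψ, Mx A Ψ → Es A Ψ ≠ ⊥ → ∀ u ∈ Ψ, ∀ v, ¬ Ani A u v → v ∈ Ψ :=
    fun Ψ hΨ hE u hu v hn => by_contra fun hv => hn (a2 Ψ hΨ hE u hu v hv)
  have na : ∀ g : G, ¬ Ani A (g • x) (g • y) := by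
    intro g hn
    refine hn _ ((h.sk.cj g x y r).2.1 hr) (fun e => hrz ?_) ?_
    · have := (h.sk.cj g⁻¹ _ _ _).2.2 e
      simpa [mul_assoc] using this
    · calc _ = g * (r * r) * g⁻¹ := by group
        _ = 1 := by rw [hr2]; group
  have n1 : ¬ Ani A x y := fun hn => hn r hr hrz hr2
  have two : ∀ g : G, ∃ Ψ, Mx A Ψ ∧ Es A Ψ ≠ ⊥ ∧ x ∈ Ψ ∧ g • x ∈ Ψ := by
    intro g
    obtain ⟨Ψ, hΨ, hE, hx⟩ := d0 x
    by_cases e : x = g • x
    · exact ⟨Ψ, hΨ, hE, hx, e ▸ hx⟩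
    obtain ⟨Φ, hΦ, hL⟩ := k.two _ _ e
    have m1 := hL (h.sk.ln x (g • x)).1
    have m2 := hL (h.sk.ln x (g • x)).2
    by_cases hE' : Es A Φ = ⊥
    swap
    · exact ⟨Φ, hΦ, hE', m1, m2⟩
    refine ⟨Ψ, hΨ, hE, hx, big Ψ hΨ hE x hx _ fun hn => ?_⟩
    have hz := k.ze Φ hΦ _ m1 _ m2 e
    rw [hE'] at hz
    obtain ⟨la, lb, -⟩ := h.ls _ _ e
    obtain ⟨t, ht, et⟩ := la.tr _ (h.sk.ln x (g • x)).2
    refine hn t ht (fun c => ?_) (mem_bot.1 (hz (lb.sq t ht)))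
    rw [mem_bot.1 (hz c), one_smul] at et
    exact e et
  have : Fact (Nat.Prime 2) := ⟨Nat.prime_two⟩
  have key : ∀ g : G, IsPGroup 2 ↥(zpowers r ⊔ (zpowers r).map (MulAut.conj g).toMonoidHom) := by
    intro g
    obtain ⟨Ψ, hΨ, hE, h1, h2⟩ := two g
    have h3 := big Ψ hΨ hE x h1 y n1
    have h4 := big Ψ hΨ hE _ h2 _ (na g)
    refine (k.t2 Ψ hΨ).to_le (sup_le ?_ ?_)
    · exact zpowers_le.2 ((h.sk.fle Ψ x h1 y h3).2 hr)
    · rw [MonoidHom.map_zpowers, zpowers_le]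
      exact (h.sk.fle Ψ _ h2 _ h4).2 ((h.sk.cj g x y r).2.1 hr)
  obtain ⟨N, hN, hN2, hle⟩ := S0199.result (zpowers r) ((key 1).to_le le_sup_left) key
  rw [h.bs.o2 N hN hN2] at hle
  exact hrz (mem_bot.1 (hle (mem_zpowers r)) ▸ one_mem _)

end Cfsg.Agent.H34.CyA2
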