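import Cfsg.Agent.H45.GdDefs

/-! Project CY, piece NIL: a subspace whose group is `2`-by-`p` is good. -/

set_option autoImplicit false
set_option linter.unusedVariables false

namespace Cfsg.Agent.H34.CyNil

open Subgroup MulAction Cfsg.Agent.H11.Cy Cfsg.Agent.H45.Iv
open scoped commutatorElement

variable {G : Type} [Group G] [Finite G] {Ω : Type} [MulAction G Ω] {p : ℕ} {A : Ω → Subgroup G}

theorem comm_A (h : St p A) {x : Ω} {a b : G} (ha : a ∈ A x) (hb : b ∈ A x) : a * b = b * a := by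
  have : Fact p.Prime := ⟨h.pp⟩
  have : IsCyclic (A x) := isCyclic_of_prime_card (h.card x)
  exact congrArg Subtype.val (IsCyclic.isMulCommutative.is_comm.comm (⟨a, ha⟩ : A x) ⟨b, hb⟩)

theorem eq_one (h : St p A) (hp : p ≠ 2) {E : Subgroup G} (hE : IsPGroup 2 E) {x : Ω} {a : G}
    (ha : a ∈ A x) (he : a ∈ E) : a = 1 := by
  obtain ⟨k, hk⟩ := hE ⟨a, he⟩
  have h1 : a ^ 2 ^ k = 1 := congrArg Subtype.val hk
  have h2 : a ^ p = 1 := by
    have := pow_card_eq_one' (G := A x) (x := ⟨a, ha⟩)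
    rw [h.card x] at this
    exact congrArg Subtype.val this
  have h3 := Nat.dvd_gcd (orderOf_dvd_of_pow_eq_one h1) (orderOf_dvd_of_pow_eq_one h2)
  rw [show Nat.gcd (2 ^ k) p = 1 from Nat.Coprime.pow_left k
    ((Nat.coprime_primes Nat.prime_two h.pp).2 (Ne.symm hp)), Nat.dvd_one, orderOf_eq_one_iff] at h3
  exact h3

/-- if `E` is normalised by `A d` and `e ∈ E`, the group `R` of the line `d, e d` lies in `E` -/
theorem rl_le (h : St p A) {E : Subgroup G} {d : Ω}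
    (hn : ∀ a ∈ A d, ∀ e ∈ E, a * e * a⁻¹ ∈ E) {e : G} (he : e ∈ E) : Rl A d (e • d) ≤ E := by
  let H : Subgroup G :=
    { carrier := {g | ∃ a ∈ A d, ∃ f ∈ E, g = f * a}
      one_mem' := ⟨1, one_mem _, 1, one_mem _, by simp⟩
      mul_mem' := by
        rintro _ _ ⟨a, ha, f, hf, rfl⟩ ⟨b, hb, g, hg, rfl⟩
        exact ⟨a * b, mul_mem ha hb, f * (a * g * a⁻¹), mul_mem hf (hn a ha g hg), by group⟩
      inv_mem' := by
        rintro _ ⟨a, ha, f, hf, rfl⟩
        exact ⟨a⁻¹, inv_mem ha, a⁻¹ * f⁻¹ * a⁻¹⁻¹, hn _ (inv_mem ha) _ (inv_mem hf), by group⟩ }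
  have hF : Fl A d (e • d) ≤ H := by
    refine sup_le (fun a ha => ⟨a, ha, 1, one_mem _, by simp⟩) fun b hb => ?_
    have h1 := h.eqv e⁻¹ _ b hb
    rw [inv_smul_smul] at h1
    refine ⟨_, h1, e * ((e⁻¹ * b * e⁻¹⁻¹) * e⁻¹ * (e⁻¹ * b * e⁻¹⁻¹)⁻¹),
      mul_mem he (hn _ h1 _ (inv_mem he)), by group⟩
  rw [Rl, commutator_le]
  intro g hg k hk
  obtain ⟨a, ha, f, hf, rfl⟩ := hF hg
  obtain ⟨b, hb, s, hs, rfl⟩ := hF hk
  have c := comm_A h ha hb
  have e1 : ⁅f * a, s * b⁆ = f * (a * s * a⁻¹) * ((a * b * a⁻¹) * f⁻¹ * b⁻¹) * s⁻¹ := by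
    rw [commutatorElement_def]; group
  rw [e1, c, mul_inv_cancel_right]
  exact mul_mem (mul_mem (mul_mem hf (hn a ha s hs)) (hn b hb _ (inv_mem hf))) (inv_mem hs)

/-- **AB** an abelian `2`-group normalised by `A d` centralises it -/
theorem ab (h : St p A) (hp : p ≠ 2) (k : SK A) (ls : LS A) (an : ∀ x y, x ≠ y → Ani A x y)
    {E : Subgroup G} (hE : IsPGroup 2 E) (hc : ∀ e ∈ E, ∀ f ∈ E, e * f = f * e) {d : Ω}
    (hn : ∀ a ∈ A d, ∀ e ∈ E, a * e * a⁻¹ ∈ E) : E ≤ centralizer (A d : Set G) := by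
  intro e he
  by_cases hd : e • d = d
  · refine mem_centralizer_iff.2 fun a ha => ?_
    have h1 := h.eqv e d a ha
    rw [hd] at h1
    have h2 : e * a * e⁻¹ * a⁻¹ = 1 := by
      refine eq_one h hp hE (mul_mem h1 (inv_mem ha)) ?_
      have := mul_mem he (hn a ha _ (inv_mem he))
      simpa only [mul_assoc] using this
    rw [mul_inv_eq_one, mul_inv_eq_iff_eq_mul] at h2
    exact h2.symm
  · exfalso
    have hne : d ≠ e • d := Ne.symm hd
    have hR := rl_le h hn he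
    obtain ⟨la, lb, lc, -⟩ := ls d _ hne
    have hz : ∀ z ∈ Zl A d (e • d), z = 1 := by
      intro z hz
      have h1 : ⁅Rl A d (e • d), Rl A d (e • d)⁆ ≤ ⊥ := by
        rw [commutator_le]
        intro a ha b hb
        rw [mem_bot, commutatorElement_eq_one_iff_mul_comm]
        exact hc a (hR ha) b (hR hb)
      exact mem_bot.1 (h1 (lc.zd hz))
    obtain ⟨r, hr, e1⟩ := la.tr _ (k.ln d (e • d)).2
    by_cases hrz : r ∈ Zl A d (e • d)
    · rw [hz r hrz, one_smul] at e1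
      exact hne e1
    · exact an d _ hne r hr hrz (hz _ (lb.sq r hr))

/-- the lower central series of a subgroup -/
abbrev lc (T : Subgroup G) (n : ℕ) : Subgroup G := Subgroup.lowerCentralSeries T n

theorem lc_conj {T : Subgroup G} {g : G} (hg : ∀ t ∈ T, g * t * g⁻¹ ∈ T) (n : ℕ) :
    ∀ t ∈ lc T n, g * t * g⁻¹ ∈ lc T n := by
  induction n with
  | zero => exact hg
  | succ n ih =>
    have : lc T (n + 1) ≤ (lc T (n + 1)).comap (MulAut.conj g).toMonoidHom := by
      show ⁅lc T n, T⁆ ≤ _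
      rw [commutator_le]
      intro a ha b hb
      rw [mem_comap, map_commutatorElement]
      exact commutator_mem_commutator (ih a ha) (hg b hb)
    exact fun t ht => this ht

theorem lc_le (T : Subgroup G) (n : ℕ) : lc T n ≤ T := by
  exact Subgroup.lowerCentralSeries_antitone T (Nat.zero_le n)

/-- the derived group of a `2`-group normalised by the `A w` centralises them -/
theorem der (h : St p A) (hp : p ≠ 2) (k : SK A) (ls : LS A) (an : ∀ x y, x ≠ y → Ani A x y)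
    {Ψ : Set Ω} {T : Subgroup G} (hT : IsPGroup 2 T) (hM : T ≤ Ms A Ψ)
    (hn : ∀ w ∈ Ψ, ∀ a ∈ A w, ∀ t ∈ T, a * t * a⁻¹ ∈ T) : ⁅T, T⁆ ≤ Cs A Ψ := by
  have key : ∀ n, ⁅lc T n, lc T n⁆ = ⊥ → lc T n ≤ Cs A Ψ := by
    intro n hc e he
    refine (k.cs Ψ e).2 fun w hw => ab h hp k ls an (hT.to_le (lc_le T n)) ?_
      (fun a ha => lc_conj (hn w hw a ha) n) he
    intro a ha b hb
    have := commutator_mem_commutator ha hb
    rwa [hc, mem_bot, commutatorElement_eq_one_iff_mul_comm] at this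
  have step : ∀ n, lc T (n + 3) = ⊥ → lc T (n + 2) = ⊥ := by
    intro n hb
    have h1 : ⁅⁅T, T⁆, lc T (n + 1)⁆ = ⊥ := by
      refine commutator_commutator_eq_bot_of_rotate ?_ hb
      rw [commutator_comm T (lc T (n + 1))]
      exact hb
    have h2 := key (n + 1) (eq_bot_iff.2 (h1 ▸ commutator_mono
      (commutator_mono (lc_le T n) le_rfl) le_rfl))
    show ⁅lc T (n + 1), T⁆ = ⊥
    rw [commutator_eq_bot_iff_le_centralizer]
    exact h2.trans (centralizer_le hM)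
  have : Fact (Nat.Prime 2) := ⟨Nat.prime_two⟩
  have hnil : Group.IsNilpotent T := hT.isNilpotent
  obtain ⟨n, hb⟩ := (Subgroup.isNilpotent_iff_lowerCentralSeries T).1 hnil
  have h0 : lc T (n + 2) = ⊥ :=
    eq_bot_iff.2 (hb ▸ Subgroup.lowerCentralSeries_antitone T (Nat.le_add_right n 2))
  have h2 : lc T 2 = ⊥ := by
    clear hb
    induction n with
    | zero => exact h0
    | succ n ih => exact ih (step n h0)
  exact key 1 (eq_bot_iff.2 (h2 ▸ commutator_mono le_rfl (lc_le T 1)))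

theorem A_le {Ψ : Set Ω} {w : Ω} (hw : w ∈ Ψ) : A w ≤ Ms A Ψ := le_iSup₂_of_le w hw le_rfl

/-- **NIL** -/
theorem nil (h : St p A) (hp : p ≠ 2) (k : SK A) (ls : LS A) (an : ∀ x y, x ≠ y → Ani A x y)
    {Ψ : Set Ω} (hT : IsPGroup 2 (Ts A Ψ)) : Good A Ψ := by
  have hM : Ts A Ψ ≤ Ms A Ψ := commutator_le_self _
  have hd := der h hp k ls an hT hM fun w hw a ha t ht => by
    have : Ts A Ψ ≤ (Ts A Ψ).comap (MulAut.conj a).toMonoidHom := by
      show ⁅Ms A Ψ, Ms A Ψ⁆ ≤ _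
      rw [commutator_le]
      intro u hu v hv
      rw [mem_comap, map_commutatorElement]
      have ha' := A_le hw ha
      exact commutator_mem_commutator (mul_mem (mul_mem ha' hu) (inv_mem ha'))
        (mul_mem (mul_mem ha' hv) (inv_mem ha'))
    exact this ht
  intro x hx y hy hxy z hz w hw
  have h1 := (k.fle Ψ x hx y hy).2
  exact k.csfix Ψ z (hd (commutator_mono h1 h1 ((ls x y hxy).2.2.1.zd hz))) w hw

theorem nilS : H45.Gd.NilStmt := fun _ _ _ _ _ _ _ _ h hp _ k ls an _ _ hT => nil h hp k ls an hT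

end Cfsg.Agent.H34.CyNil
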