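import Mathlib
import Cfsg.Agent.H6.E82Defs

/-! Descent of the twisted centraliser property to `E₈(2)`. -/

set_option autoImplicit false

namespace Cfsg.Agent.H34.E82End

open Cfsg.Agent.H6.E82

theorem act_mul (g h : GK) (v : V) : act (g * h) v = act g (act h v) := by
  rw [map_mul]
  rfl

theorem act_inv (g : GK) (v : V) : act g⁻¹ (act g v) = v := by
  rw [← act_mul, inv_mul_cancel, map_one]
  rfl

/-- **END** -/
theorem endS (brg : BrgStmt) (fr : FrameStmt) (cj : ConjStmt) : EndStmt := by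
  intro x t n ho hc ⟨h1, h2, h3⟩
  obtain ⟨f1, f2, f3, f4, -, -⟩ := fr
  obtain ⟨y, hy⟩ := f1 n
  obtain ⟨x', hx'⟩ := f2 (y * t * y⁻¹) (by
    rw [map_mul, map_mul, map_inv, hy]
    conv_rhs => rw [← h1]
    group)
  obtain ⟨c, hc'⟩ := isConj_iff.1 (cj x x' ho (hc.symm.trans (isConj_iff.2 ⟨y, hx'.symm⟩)))
  obtain ⟨z, hz, hφ⟩ : ∃ z : GK, ι x = z⁻¹ * t * z ∧ φ z = n⁻¹ * z := by
    refine ⟨y⁻¹ * ι c, ?_, ?_⟩
    · have e := congrArg ι hc'
      rw [map_mul, map_mul, map_inv, hx'] at e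
      calc ι x = (ι c)⁻¹ * (ι c * ι x * (ι c)⁻¹) * ι c := by group
        _ = _ := by rw [e]; group
    · rw [map_mul, map_inv, hy, f3]
      group
  have fx : ∀ v, act (ι x) v = v → act t (act z v) = act z v := fun v hv => by
    have e : t * z = z * ι x := by rw [hz]; group
    rw [← act_mul, e, act_mul, hv]
  refine ⟨fun v hv => ?_, fun A hA hb => ?_⟩
  · have e := h2 (fun i => act z (v i)) fun i => fx _ (hv i)
    have e2 : act z (b3 v) = 0 := by
      rw [← e]
      simp only [b3, (brg z _ _).1]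
    rw [← act_inv z (b3 v), e2, map_zero]
  · obtain ⟨g, g1, g2, g3, g4⟩ := h3 (act z '' A) (by
      rintro _ ⟨v, hv, rfl⟩
      refine ⟨?_, fx _ (hA v hv).2⟩
      rw [f4, (hA v hv).1, ← act_mul, hφ, mul_inv_cancel_left]) (by
      rintro _ ⟨a, ha, rfl⟩ _ ⟨b, hb', rfl⟩
      rw [← (brg z _ _).1, hb a ha b hb', map_zero])
    obtain ⟨g0, hg0⟩ := f2 (z⁻¹ * g * z) (by
      rw [map_mul, map_mul, map_inv, hφ]
      conv_rhs => rw [← g1]
      group)
    refine ⟨g0, ι_injective ?_, ?_, fun v hv => ?_⟩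
    · rw [map_mul, map_mul, hg0, hz]
      calc z⁻¹ * g * z * (z⁻¹ * t * z) = z⁻¹ * (g * t) * z := by group
        _ = _ := by rw [g2.eq]; group
    · rintro ⟨k, hk⟩
      refine g3 ⟨k, ?_⟩
      have e := congrArg ι hk
      simp only at e
      rw [map_zpow, hg0, hz] at e
      have e2 : (z⁻¹ * t * z) ^ k = z⁻¹ * t ^ k * z := by
        have := conj_zpow (i := k) (a := z⁻¹) (b := t)
        rwa [inv_inv] at this
      rw [e2] at e
      exact mul_left_cancel (mul_right_cancel e)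
    · rw [hg0, act_mul, act_mul, g4 _ ⟨v, hv, rfl⟩, act_inv]

end Cfsg.Agent.H34.E82End
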