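import Mathlib
import Cfsg.Agent.H6.E82Defs

/-! Parameters for the modules of `SL₂(64)`. -/

set_option autoImplicit false

namespace Cfsg.Agent.H34.E82Par

open Cfsg.Agent.H6.E82 Cfsg.Agent.H82

theorem hh_pow {s : F} (hs : s ≠ 0) (k : ℕ) : hh s hs ^ k = hh (s ^ k) (pow_ne_zero k hs) := by
  induction k with
  | zero => simp only [pow_zero, hh_one]
  | succ k ih => simp only [pow_succ, ih, hh_mul_hh]

theorem x0_pow (p : Par) {μ : K} (h0 : μ ≠ 0) (hμ : p.κ p.τ = μ + μ⁻¹) (n : ℕ) :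
    -p.κ ((x0 p ^ n) 0 0) + p.κ ((x0 p ^ n) 0 1) * μ = -μ ^ n ∧
      -p.κ ((x0 p ^ n) 1 0) + p.κ ((x0 p ^ n) 1 1) * μ = μ ^ (n + 1) := by
  induction n with
  | zero => simp
  | succ n ih =>
    have e : ∀ j, (x0 p ^ (n + 1)) 0 j = -(x0 p ^ n) 1 j ∧
        (x0 p ^ (n + 1)) 1 j = (x0 p ^ n) 0 j + p.τ * (x0 p ^ n) 1 j := fun j => by
      rw [pow_succ']
      generalize x0 p ^ n = g
      have e : ∀ i, (x0 p * g) i j = (!![0, -1; 1, p.τ] * g.1 : Matrix (Fin 2) (Fin 2) F) i j :=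
        fun i => rfl
      rw [e, e]
      constructor <;> simp [Matrix.mul_apply, Fin.sum_univ_two]
    rw [(e 0).1, (e 1).1, (e 0).2, (e 1).2]
    simp only [map_neg, map_add, map_mul, hμ]
    have h1 : μ⁻¹ * μ = 1 := inv_mul_cancel₀ h0
    refine ⟨by linear_combination -ih.2, ?_⟩
    linear_combination ih.1 + (μ + μ⁻¹) * ih.2 + μ ^ n * h1

theorem nonempty : Nonempty Par := by
  let κ : F →ₐ[ZMod 2] K := IsAlgClosed.lift
  obtain ⟨θ, hθ, -⟩ := exists_prim_unit K (N := 65) (by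
    rw [Ne, CharP.cast_eq_zero_iff K 2]
    decide)
  have h65 : θ ^ 64 = θ⁻¹ := eq_inv_of_mul_eq_one_left (by rw [← pow_succ, hθ.pow_eq_one])
  obtain ⟨τ, hτ⟩ := (mem_range_of_pow_card κ.toRingHom ((θ : K) + ((θ⁻¹ : Kˣ) : K))).1 (by
    rw [card_F, show 64 = 2 ^ 6 by norm_num, add_pow_char_pow, ← Units.val_pow_eq_pow_val,
      ← Units.val_pow_eq_pow_val, inv_pow, show 2 ^ 6 = 64 by norm_num, h65, inv_inv, add_comm])
  obtain ⟨l, hl⟩ := IsCyclic.exists_generator (α := Fˣ)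
  have ho : orderOf l = 63 := by
    rw [orderOf_eq_card_of_forall_mem_zpowers hl, Nat.card_eq_fintype_card, Fintype.card_units,
      card_F]
  exact ⟨⟨κ.toRingHom, θ, τ, l, hθ, hτ, ho ▸ IsPrimitiveRoot.orderOf l⟩⟩

/-- **PAR** -/
theorem par : ParStmt := by
  refine ⟨nonempty, fun p => ⟨?_, ?_, fun a ha => ?_, ?_, fun s hs => ?_⟩⟩
  · have hθ : IsPrimitiveRoot (p.θ : K) 65 := IsPrimitiveRoot.coe_units_iff.2 p.hθ
    have h0 : (p.θ : K) ≠ 0 := p.θ.ne_zero
    have h1 : p.κ p.τ = p.θ + (p.θ : K)⁻¹ := by rw [p.hτ, Units.val_inv_eq_inv_val]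
    refine Nat.dvd_antisymm (orderOf_dvd_of_pow_eq_one ?_) (hθ.dvd_of_pow_eq_one _ ?_)
    · obtain ⟨a1, a2⟩ := x0_pow p h0 h1 65
      obtain ⟨b1, b2⟩ := x0_pow p (inv_ne_zero h0) (by rw [inv_inv, h1, add_comm]) 65
      rw [pow_succ (p.θ : K), hθ.pow_eq_one] at a2
      rw [pow_succ (p.θ : K)⁻¹, hθ.inv.pow_eq_one] at b2
      rw [hθ.pow_eq_one] at a1
      rw [hθ.inv.pow_eq_one] at b1
      generalize x0 p ^ 65 = g at a1 a2 b1 b2 ⊢
      have hd : (p.θ : K) - (p.θ : K)⁻¹ ≠ 0 := fun h => by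
        have : (p.θ : K) ^ 2 = 1 := by
          rw [sq]
          nth_rewrite 1 [sub_eq_zero.1 h]
          exact inv_mul_cancel₀ h0
        exact absurd (hθ.dvd_of_pow_eq_one _ this) (by decide)
      have e01 : p.κ (g 0 1) = 0 :=
        mul_right_cancel₀ hd (by linear_combination a1 - b1)
      have e11 : p.κ (g 1 1) = 1 :=
        mul_right_cancel₀ hd (by linear_combination a2 - b2)
      rw [e01] at a1
      rw [e11] at a2
      refine SL2_ext (p.κ.injective ?_) (p.κ.injective ?_) (p.κ.injective ?_)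
        (p.κ.injective ?_)
      · rw [show (1 : SL) 0 0 = 1 from rfl, map_one]
        linear_combination -a1
      · rw [show (1 : SL) 0 1 = 0 from rfl, map_zero, e01]
      · rw [show (1 : SL) 1 0 = 0 from rfl, map_zero]
        linear_combination -a2
      · rw [show (1 : SL) 1 1 = 1 from rfl, map_one, e11]
    · have a1 := (x0_pow p h0 h1 (orderOf (x0 p))).1
      rw [pow_orderOf_eq_one, show (1 : SL) 0 0 = 1 from rfl, show (1 : SL) 0 1 = 0 from rfl,
        map_one, map_zero] at a1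
      linear_combination a1
  · have hl : IsPrimitiveRoot (p.l : F) 63 := IsPrimitiveRoot.coe_units_iff.2 p.hl
    refine Nat.dvd_antisymm (orderOf_dvd_of_pow_eq_one ?_) (hl.dvd_of_pow_eq_one _ ?_)
    · rw [t0, hh_pow]
      simp only [hl.pow_eq_one, hh_one]
    · have := pow_orderOf_eq_one (t0 p)
      conv_lhs at this => rw [t0, hh_pow]
      exact congrArg (fun g : SL => g 0 0) this
  · have h1 := (mem_range_of_pow_card p.κ (p.θ : K)).2 ⟨a, ha⟩
    rw [card_F, pow_succ, mul_eq_right₀ p.θ.ne_zero] at h1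
    exact absurd ((IsPrimitiveRoot.coe_units_iff.2 p.hθ).dvd_of_pow_eq_one _ h1) (by decide)
  · exact p.hl.map_of_injective (Units.map_injective p.κ.injective)
  · have h1 : s ^ 63 = 1 := by
      have := FiniteField.pow_card_sub_one_eq_one s hs
      rwa [card_F] at this
    obtain ⟨k, -, hk⟩ := (IsPrimitiveRoot.coe_units_iff.2 p.hl).eq_pow_of_pow_eq_one h1
    refine ⟨k, ?_⟩
    rw [t0, hh_pow]
    simp only [hk]

end Cfsg.Agent.H34.E82Par
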