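import Mathlib
import Cfsg.Agent.H98.GbH

/-! The twisted Hall product is commutative. -/

set_option autoImplicit false

namespace Cfsg.Agent.H34.GbComm

open Cfsg Finset Cfsg.Agent.H98.GB
open scoped MatrixGroups

universe u

variable {F : Type u} [Field F] [Fintype F] [DecidableEq F]

theorem perp1_sub {m k n : ℕ} (h : m + k = n) (P : GL (Fin m) F → ℂ) (f f' : GL (Fin n) F → ℂ) :
    perp1 h P (f - f') = perp1 h P f - perp1 h P f' := by
  funext v
  simp only [perp1, classInner, res, Pi.sub_apply, sum_sub_distrib, mul_sub, sub_mul]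

theorem tw_mul (hT : TWCStmt.{u}) (η : Fˣ →* ℂˣ) (x y : Fn F) : TwF η (mul η x y) := by
  intro n s g
  simp only [mul, Finset.sum_apply, mul_sum]
  exact sum_congr rfl fun ab _ => (hT F η).1 _ _ _ _ _ _ s g

/-- **COMM** -/
theorem comm (hT : TWCStmt.{u}) (hD : DERStmt.{u}) (hS : SPANStmt.{u}) : COMMStmt.{u} := by
  intro F _ _ _ η x y hx hy
  funext n
  induction n using Nat.strong_induction_on generalizing x y with
  | _ n ih =>
    rcases Nat.eq_zero_or_pos n with rfl | hn
    · refine sum_congr rfl ?_
      rintro ⟨⟨a, b⟩, h⟩ -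
      have h' : a + b = 0 := mem_antidiagonal.1 h
      obtain rfl : a = 0 := by omega
      obtain rfl : b = 0 := by omega
      funext g
      simp only [H98.GB.cmp, cmpS]
      refine congrArg _ (sum_congr rfl fun s _ => sum_congr rfl fun u _ =>
        sum_congr rfl fun c _ => sum_congr rfl fun v _ => ?_)
      obtain rfl : u = v := Subsingleton.elim _ _
      split_ifs
      · ring
      · rfl
    · refine sub_eq_zero.1 (hS F η n _ hn (fun s g => ?_) ?_)
      · rw [Pi.sub_apply, Pi.sub_apply, tw_mul hT η x y n, tw_mul hT η y x n, mul_sub]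
      · rintro m k rfl P hP tP
        have tp : ∀ z : Fn F, TwF η z → TwF η (perp m P z) := fun z hz j =>
          (hT F η).2.2.1 _ _ _ rfl P _ (hz _)
        have e1 := congrFun (hD F η m P x y hP tP hx hy) k
        have e2 := congrFun (hD F η m P y x hP tP hy hx) k
        have hk : k < m + k := by have := hP.1; omega
        rw [perp1_sub, sub_eq_zero]
        refine e1.trans (Eq.trans ?_ e2.symm)
        rw [Pi.add_apply, Pi.add_apply, ih k hk _ _ (tp x hx) hy, ih k hk _ _ hx (tp y hy),
          add_comm]

end Cfsg.Agent.H34.GbComm
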