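import Cfsg.Agent.H89.L27Defs

/-! Fixed points of the twisted Frobenius map in the unipotent subgroups of `A₂`. -/

set_option autoImplicit false

namespace Cfsg.Agent.H34.L27U

open Equiv Cfsg.Lie H37 H40 H29 Module Cfsg.Agent.H50.E83 Cfsg.Agent.H89.L27 Polynomial

theorem exists_roots {k : Type*} [Field k] [IsAlgClosed k] {m : ℕ} (hm : 1 < m) (h0 : (m : k) = 0)
    {e : k} (he : e ≠ 0) (β : k) : ∃ T : Finset k, T.card = m ∧ ∀ t ∈ T, t = β + e * t ^ m := by
  classical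
  let f : k[X] := C e * X ^ m + (C β - X)
  have hd : f.natDegree = m := by
    have : (C e * X ^ m : k[X]).natDegree = m := natDegree_C_mul_X_pow m e he
    rw [natDegree_add_eq_left_of_natDegree_lt, this]
    rw [this]
    exact lt_of_le_of_lt (by compute_degree) hm
  have hs : f.Separable := by
    have : derivative f = -1 := by simp [f, derivative_X_pow, h0]
    rw [separable_def, this]
    exact isCoprime_one_right.neg_right
  refine ⟨f.roots.toFinset, ?_, fun t ht => ?_⟩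
  · rw [Multiset.toFinset_card_of_nodup (nodup_roots hs), IsAlgClosed.card_roots_eq_natDegree, hd]
  · have := isRoot_of_mem_roots (Multiset.mem_toFinset.1 ht)
    simp only [f, IsRoot.def, eval_add, eval_mul, eval_C, eval_pow, eval_X, eval_sub] at this
    linear_combination -this

theorem heis {k G : Type*} [Field k] [IsAlgClosed k] [CharP k 3] [Group G] {x y z : k → G}
    {a b c d : k} (ha : a ≠ 0) (hb : b ≠ 0) (hc : c ≠ 0) (hd : d ≠ 0)
    (hy : ∀ s t, Commute (y s) (y t))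
    (hz : ∀ s t, z (s + t) = z s * z t) (hzi : Function.Injective z)
    (hyz : ∀ s t, Commute (y s) (z t))
    (hxy : ∀ p q, y q * x p = x p * y q * z (c * p * q)) (τ : G →* G)
    (tx : ∀ t, τ (x t) = y (a * t ^ 3)) (ty : ∀ t, τ (y t) = x (b * t ^ 3))
    (tz : ∀ t, τ (z t) = z (d * t ^ 3)) :
    ∃ Y : Finset G, 27 ≤ Y.card ∧ ∀ g ∈ Y, (∃ p q s, g = x p * y q * z s) ∧ τ g = g := by
  classical
  have h3 : ((3 : ℕ) : k) = 0 := CharP.cast_eq_zero k 3
  obtain ⟨T, hT, hT'⟩ := exists_roots (m := 9) (by norm_num)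
    (by rw [show 9 = 3 * 3 from rfl, Nat.cast_mul, h3, zero_mul])
    (mul_ne_zero hb (pow_ne_zero 3 ha)) 0
  choose S hS hS' using fun p : k => exists_roots (m := 3) (by norm_num) h3 hd (c * p * (a * p ^ 3))
  refine ⟨(T.sigma S).image fun u => x u.1 * y (a * u.1 ^ 3) * z u.2, ?_, fun g hg => ?_⟩
  · rw [Finset.card_image_of_injective, Finset.card_sigma]
    · simp [hS, hT]
    rintro ⟨p, s⟩ ⟨p', s'⟩ e
    have key : ∀ p q s, y 1 * (x p * y q * z s) = x p * y q * z s * y 1 * z (c * p * 1) := by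
      intro p q s
      rw [← mul_assoc, ← mul_assoc, hxy, mul_assoc (x p * y q), ← (hyz 1 s).eq,
        mul_assoc (x p * y 1), ← (hyz q _).eq, ← mul_assoc, mul_assoc (x p), (hy 1 q).eq]
      simp only [mul_assoc, ← hz, add_comm]
    have e1 := key p (a * p ^ 3) s
    dsimp only at e
    rw [e, key, mul_left_cancel_iff] at e1
    obtain rfl : p' = p := mul_left_cancel₀ hc (by simpa using hzi e1)
    rw [hzi (mul_left_cancel e)]
  · obtain ⟨⟨p, s⟩, hu, rfl⟩ := Finset.mem_image.1 hg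
    obtain ⟨h1, h2⟩ := Finset.mem_sigma.1 hu
    refine ⟨⟨_, _, _, rfl⟩, ?_⟩
    have e1 : b * (a * p ^ 3) ^ 3 = p := by linear_combination -hT' p h1
    rw [map_mul, map_mul, tx, ty, tz, e1, hxy, mul_assoc, ← hz, ← hS' p s h2]

theorem tri {n : GK} (hn : n ∈ P8.N) {r s m : Rt} {c : ℤ} (h1 : P8.ν n r = s) (h2 : P8.ν n s = r)
    (h3 : P8.ν n m = m)
    (h : s ≠ r ∧ (s : ℕ) ≠ chevE8.neg r ∧ chevE8.commTerms r s = [(m.1, c, 1, 1)] ∧ c * c = 1 ∧
      CommP chevE8 3 s m) :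
    ∃ Y : Finset GK, 27 ≤ Y.card ∧ ∀ g ∈ Y,
      (∃ p q t, g = C8.wg K [(r.1, p), (s.1, q), (m.1, t)]) ∧ n * σG g * n⁻¹ = g := by
  obtain ⟨a, -, ha⟩ := Cert.conj_xg hn
  have key : ∀ (r : Rt) t, ((MulAut.conj n).toMonoidHom.comp σG) (C8.xg K r t) =
      C8.xg K (P8.ν n r) (a r * t ^ 3) := fun r t => by
    rw [← ha]
    exact congrArg (n * · * n⁻¹) (C8.V.fieldHom_xE fr r t)
  have hc : ∀ (r : ℕ) s t, Commute (C8.xg K r s) (C8.xg K r t) := fun r s t => by
    rw [Commute, SemiconjBy, ← Cert.xg_add, ← Cert.xg_add, add_comm]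
  obtain ⟨Y, hY, hY'⟩ := heis (x := C8.xg K r) (c := -(c : K)) (a r).ne_zero (a s).ne_zero (by
      have : (c : K) * c = 1 := by exact_mod_cast congrArg (Int.cast : ℤ → K) h.2.2.2.1
      exact neg_ne_zero.2 (left_ne_zero_of_mul_eq_one this)) (a m).ne_zero (hc s)
    (Cert.xg_add m) (Cert.xg_injective m.2) h.2.2.2.2.commute (fun p q => by
      rw [Cert.xg_comm r.2 s.2 (Fin.val_ne_of_ne h.1) h.2.1, ChevalleyDatum.commWord, h.2.2.1]
      simp) _ (fun t => by rw [key, h1]) (fun t => by rw [key, h2]) fun t => by rw [key, h3]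
  exact ⟨Y, hY, fun g hg => ⟨by simpa [mul_assoc] using (hY' g hg).1, (hY' g hg).2⟩⟩

theorem twU : TwUStmt := by
  intro n hn hw
  have hA : ∀ w : List (ℕ × K), (∀ r ∈ w.map Prod.fst, r ∈ A2) → C8.wg K w ∈ AG := fun w h =>
    Cert.wg_mem fun p hp => Subgroup.subset_closure ⟨_, h _ (List.mem_map_of_mem hp), _, rfl⟩
  constructor
  · obtain ⟨Y, h1, h2⟩ := tri hn (r := ⟨121, by decide⟩) (s := ⟨120, by decide⟩)
      (m := ⟨122, by decide⟩) (c := -1) (Fin.ext (hw _ (121, 120) (by simp) rfl))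
      (Fin.ext (hw _ (120, 121) (by simp) rfl)) (Fin.ext (hw _ (122, 122) (by simp) rfl))
      (by decide +kernel)
    refine ⟨Y, h1, fun y hy => ?_⟩
    obtain ⟨⟨p, q, t, rfl⟩, e⟩ := h2 y hy
    exact ⟨hA _ (by simp [A2]), Cert.wg_mem_Up (by
      simp only [List.map_cons, List.map_nil]; decide +kernel), e⟩
  · obtain ⟨Y, h1, h2⟩ := tri hn (r := ⟨118, by decide⟩) (s := ⟨119, by decide⟩)
      (m := ⟨117, by decide⟩) (c := 1) (Fin.ext (hw _ (118, 119) (by simp) rfl))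
      (Fin.ext (hw _ (119, 118) (by simp) rfl)) (Fin.ext (hw _ (117, 117) (by simp) rfl))
      (by decide +kernel)
    refine ⟨Y, h1, fun y hy => ?_⟩
    obtain ⟨⟨p, q, t, rfl⟩, e⟩ := h2 y hy
    exact ⟨hA _ (by simp [A2]), Cert.wg_mem_Vn (by
      simp only [List.map_cons, List.map_nil]; decide +kernel), e⟩

end Cfsg.Agent.H34.L27U
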