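import Cfsg.Agent.H54.O84Defs
import Cfsg.Agent.H34.Twist3
import Cfsg.Agent.H40.Cent

/-! The group of type `D₄` over the field with four elements has trivial centre. -/

set_option autoImplicit false

namespace Cfsg.Agent.H34.O84E

open Cfsg.Agent.H54.O84 Equiv Cfsg.Lie H37 H40 H29

universe u

theorem e6 (hc : CommStmt) (h1 : E1Stmt) : E6Stmt.{u} := by
  intro F _ _ hF ι
  rw [eq_bot_iff]
  rintro ⟨g, hg⟩ hz
  have hz' : ∀ y ∈ D4g ι, Commute y g := fun y hy =>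
    congrArg Subtype.val (Subgroup.mem_center_iff.1 hz ⟨y, hy⟩)
  have hx : ∀ r ∈ Δ0, ∀ t ∈ ι.fieldRange, C8.xg K r t ∈ D4g ι := by
    rintro r hr _ ⟨t, rfl⟩
    exact Subgroup.subset_closure ⟨r, hr, t, rfl⟩
  have hU : g ∈ P8.U Δ0 := (Subgroup.closure_le _).2 (by
    rintro _ ⟨r, hr, t, rfl⟩
    exact Split.mem_U hr (Cert.xg_mem_X r _)) hg
  obtain ⟨o, o0, o1⟩ : ∃ o : F, o ≠ 0 ∧ o ^ 2 ≠ 1 := by
    classical
    obtain ⟨o, ho⟩ := IsCyclic.exists_ofOrder_eq_natCard (α := Fˣ)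
    rw [Nat.card_units, Nat.card_eq_fintype_card, hF] at ho
    refine ⟨o, o.ne_zero, fun e => ?_⟩
    have := orderOf_dvd_of_pow_eq_one (Units.ext e : o ^ 2 = 1)
    rw [ho] at this
    omega
  have o2 := (map_ne_zero ι).2 o0
  have hN := (Split.mem_N_of_commute C8.free (Q := {h | ∃ r ∈ Δ0, h = C8.hg K r (ι o)})
    (by rintro _ ⟨r, -, rfl⟩; exact Cert.hg_mem_H r.2 o2) (fun r hr h => by
      have e := Cert.hg_conj (C := C8) r.2 r.2 o2 1
      rw [(h _ ⟨r, hr, rfl⟩ _ (Cert.xg_mem_X r 1)).eq, mul_inv_cancel_right, ← H40.pair_eq C8,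
        C8.R.pair_self, mul_one] at e
      refine o1 (ι.injective ?_)
      rw [map_pow, map_one, Cert.xg_injective r.2 e, ← zpow_natCast]
      rfl) hU (by
      rintro _ ⟨r, hr, rfl⟩
      refine hz' _ (Cert.hg_mem1 ι.fieldRange (hx r hr) ?_ ⟨o, rfl⟩)
      rw [← C8.neg_val]
      exact hx _ (C8.S.neg_mem_Phi hr))).1
  obtain ⟨a, -, ha⟩ := Cert.conj_xg hN
  have h0 : P8.U Δ0 ≤ Subgroup.centralizer {g} := Split.U_le fun r hr x hx' => by
    obtain ⟨t, rfl⟩ := Cert.mem_X.1 hx'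
    have e := ha r 1
    rw [← (hz' _ (hx r hr 1 (one_mem _))).eq, mul_inv_cancel_right] at e
    have e1 := Cert.xg_mem_X (C := C8) ((C8.split K).ν g r) ((a r : K) * 1)
    rw [← e] at e1
    have e2 : r = (C8.split K).ν g r := Split.eq_of_mem_X (Cert.xg_mem_X r 1) e1
      fun h => one_ne_zero ((Cert.xg_eq_one_iff r.2).1 h)
    rw [← e2] at e
    have e3 := ha r t
    rw [← e2, ← mul_one (a r : K), ← Cert.xg_injective r.2 e, one_mul] at e3
    exact Subgroup.mem_centralizer_singleton_iff.2 (mul_inv_eq_iff_eq_mul.1 e3).symm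
  refine Subtype.ext (h1 g fun y hy => ?_)
  obtain ⟨x, hx, y', hy', rfl⟩ := hc.2 y hy
  exact Commute.mul_right (Subgroup.mem_centralizer_singleton_iff.1 (h0 hx)).symm (hc.1 g hU y' hy')

end Cfsg.Agent.H34.O84E
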