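import Cfsg.Agent.H74.RuDefs

/-!
# RU-FIX: isotropic fixed vectors of a `p`-group
-/

set_option autoImplicit false

namespace Cfsg.Agent.H34.RuF

open Cfsg Module Cfsg.Agent.H31 Cfsg.Agent.H74.Ru

theorem fix0 {F V : Type} [Field F] [Fintype F] [AddCommGroup V] [Module F V]
    [FiniteDimensional F V] {P : Subgroup (V ≃ₗ[F] V)} (hP : IsPGroup (ringChar F) P)
    {X R : Submodule F V} (hX : ∀ g ∈ P, ∀ x ∈ X, g x ∈ X) (hR : ∀ g ∈ P, ∀ r ∈ R, g r ∈ R)
    (h : ∃ y ∈ R, y ∉ X) : ∃ y ∈ R, y ∉ X ∧ ∀ g ∈ P, g y - y ∈ X := by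
  have : Finite V := Module.finite_of_finite F
  have hp : (ringChar F).Prime := CharP.char_is_prime F _
  have := Fact.mk hp
  let f : P → V ⧸ X →ₗ[F] V ⧸ X := fun g => X.mapQ X g.1.toLinearMap (hX g g.2)
  have hf : ∀ g v, f g (X.mkQ v) = X.mkQ (g.1 v) := fun _ _ => rfl
  let : MulAction P (R.map X.mkQ) :=
    { smul := fun g y => ⟨f g y, by
        obtain ⟨_, r, hr, rfl⟩ := y
        exact ⟨_, hR g g.2 r hr, rfl⟩⟩
      one_smul := by
        rintro ⟨_, r, hr, rfl⟩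
        rfl
      mul_smul := by
        rintro g g' ⟨_, r, hr, rfl⟩
        rfl }
  obtain ⟨y, hy, hyX⟩ := h
  have : Nontrivial (R.map X.mkQ) := ⟨⟨⟨_, y, hy, rfl⟩, 0, fun e =>
    hyX ((Submodule.Quotient.mk_eq_zero X).1 (congrArg Subtype.val e))⟩⟩
  have hd : ringChar F ∣ Nat.card (R.map X.mkQ) := by
    rw [Module.natCard_eq_pow_finrank (K := F)]
    refine Dvd.dvd.pow ?_ Module.finrank_pos.ne'
    obtain ⟨n, -, e⟩ := FiniteField.card F (ringChar F)
    rw [Nat.card_eq_fintype_card, e]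
    exact dvd_pow_self _ n.ne_zero
  have : Finite (V ⧸ X) := Finite.of_surjective _ X.mkQ_surjective
  obtain ⟨⟨_, r, hr, rfl⟩, b1, b2⟩ := hP.exists_fixed_point_of_prime_dvd_card_of_fixed_point
    (R.map X.mkQ) hd (a := 0) fun g => Subtype.ext (map_zero (f g))
  exact ⟨r, hr, fun e => b2 (Subtype.ext ((Submodule.Quotient.mk_eq_zero X).2 e).symm),
    fun g hg => (Submodule.Quotient.eq X).1 (congrArg Subtype.val (b1 ⟨g, hg⟩))⟩

theorem fix : FixStmt := by
  intro F V _ _ _ _ _ S P hG hP X R hXR hB hX hR ⟨y, hy, hyX, hy0⟩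
  obtain ⟨a, a1, a2, a3⟩ := fix0 hP hX hR ⟨y, hy, hyX⟩
  by_cases a0 : S.B a a = 0
  · exact ⟨a, a1, a2, a0, a3⟩
  have hs := S.herm.toIsHermSymm
  have hB' : ∀ r ∈ R, ∀ x ∈ X, S.B r x = 0 := fun r hr x hx => hs.flip_zero (hB x hx r hr)
  obtain ⟨b, ⟨b1, b1'⟩, b2, b3⟩ := fix0 hP (R := R ⊓ LinearMap.ker (S.B a)) hX
    (fun g hg r hr => ⟨hR g hg r hr.1, by
      have e1 := (hG hg).1 a r
      have e2 := hB _ (a3 g hg) _ (hR g hg r hr.1)
      rw [map_sub, LinearMap.sub_apply, e1, show S.B a r = 0 from hr.2, zero_sub,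
        neg_eq_zero] at e2
      exact e2⟩) (by
      refine ⟨y - (S.B a y / S.B a a) • a, ⟨sub_mem hy (R.smul_mem _ a1), ?_⟩, fun e => ?_⟩
      · change S.B a _ = 0
        rw [map_sub, map_smul, smul_eq_mul, div_mul_cancel₀ _ a0, sub_self]
      · have e1 := hB' a a1 _ e
        have e2 := hB' y hy _ e
        generalize S.B a y / S.B a a = c at e e1 e2
        rw [map_sub, map_smul, smul_eq_mul, sub_eq_zero] at e1 e2
        rw [hy0, ← hs.symm, e1, map_mul, eq_comm, mul_eq_zero, mul_eq_zero, map_eq_zero,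
          map_eq_zero] at e2
        rw [show c = 0 by tauto, zero_smul, sub_zero] at e
        exact hyX e)
  have b4 : S.B a b = 0 := b1'
  by_cases b0 : S.B b b = 0
  · exact ⟨b, b1, b2, b0, b3⟩
  obtain ⟨l, hl⟩ : ∃ l : F, S.B (l • a) (l • a) = -S.B b b :=
    hs.exists_smul_norm_eq a0 (by rw [map_neg, hs.norm_fixed])
  refine ⟨l • a + b, add_mem (R.smul_mem _ a1) b1, fun e => ?_, ?_, fun g hg => ?_⟩
  · have e1 := hB' a a1 _ e
    rw [map_add, map_smul, b4, add_zero, smul_eq_mul, mul_eq_zero] at e1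
    rw [e1.resolve_right a0, zero_smul, zero_add] at e
    exact b2 e
  · rw [map_add, map_add, LinearMap.add_apply, LinearMap.add_apply, hl, map_smul (S.B b),
      hs.flip_zero b4, LinearMap.map_smulₛₗ₂, b4]
    simp
  · rw [map_add, map_smul, show l • g a + g b - (l • a + b) = l • (g a - a) + (g b - b) by
      rw [smul_sub]; abel]
    exact add_mem (X.smul_mem _ (a3 g hg)) (b3 g hg)

end Cfsg.Agent.H34.RuF
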