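/-
Elements of order five in `²E₆(2)`.
-/
import Mathlib
import Cfsg.Agent.H34.FrD
import Cfsg.Agent.H34.TwE6Loc
import Cfsg.Agent.S0256

set_option autoImplicit false
set_option synthInstance.maxSize 1000

namespace Cfsg.Agent.H34.Five

open Equiv Cfsg.Lie Cfsg.Agent.H37 Cfsg.Agent.H40 Cert

/-- The table of roots. -/
def tabE6 : List RD :=
    [mkRD 0 [-1, -2, -2, -3, -2, -1] [0, -1, 0, 0, 0, 0] [-1, -2, -2, -3, -2, -1], mkRD 1 [-1,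
    -1, -2, -3, -2, -1] [0, 1, 0, -1, 0, 0] [-1, -1, -2, -3, -2, -1], mkRD 2 [-1, -1, -2, -2, -2,
    -1] [0, 0, -1, 1, -1, 0] [-1, -1, -2, -2, -2, -1], mkRD 3 [-1, -1, -2, -2, -1, -1] [0, 0, -1,
    0, 1, -1] [-1, -1, -2, -2, -1, -1], mkRD 4 [-1, -1, -2, -2, -1, 0] [0, 0, -1, 0, 0, 1] [-1,
    -1, -2, -2, -1, 0], mkRD 5 [-1, -1, -1, -2, -2, -1] [-1, 0, 1, 0, -1, 0] [-1, -1, -1, -2, -2,
    -1], mkRD 6 [-1, -1, -1, -2, -1, -1] [-1, 0, 1, -1, 1, -1] [-1, -1, -1, -2, -1, -1], mkRD 7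
    [-1, -1, -1, -2, -1, 0] [-1, 0, 1, -1, 0, 1] [-1, -1, -1, -2, -1, 0], mkRD 8 [-1, -1, -1, -1,
    -1, -1] [-1, -1, 0, 1, 0, -1] [-1, -1, -1, -1, -1, -1], mkRD 9 [-1, -1, -1, -1, -1, 0] [-1,
    -1, 0, 1, -1, 1] [-1, -1, -1, -1, -1, 0], mkRD 10 [-1, -1, -1, -1, 0, 0] [-1, -1, 0, 0, 1, 0]
    [-1, -1, -1, -1, 0, 0], mkRD 11 [-1, 0, -1, -1, -1, -1] [-1, 1, 0, 0, 0, -1] [-1, 0, -1, -1,
    -1, -1], mkRD 12 [-1, 0, -1, -1, -1, 0] [-1, 1, 0, 0, -1, 1] [-1, 0, -1, -1, -1, 0], mkRD 13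
    [-1, 0, -1, -1, 0, 0] [-1, 1, 0, -1, 1, 0] [-1, 0, -1, -1, 0, 0], mkRD 14 [-1, 0, -1, 0, 0,
    0] [-1, 0, -1, 1, 0, 0] [-1, 0, -1, 0, 0, 0], mkRD 15 [-1, 0, 0, 0, 0, 0] [-2, 0, 1, 0, 0, 0]
    [-1, 0, 0, 0, 0, 0], mkRD 16 [0, -1, -1, -2, -2, -1] [1, 0, 0, 0, -1, 0] [0, -1, -1, -2, -2,
    -1], mkRD 17 [0, -1, -1, -2, -1, -1] [1, 0, 0, -1, 1, -1] [0, -1, -1, -2, -1, -1], mkRD 18
    [0, -1, -1, -2, -1, 0] [1, 0, 0, -1, 0, 1] [0, -1, -1, -2, -1, 0], mkRD 19 [0, -1, -1, -1,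
    -1, -1] [1, -1, -1, 1, 0, -1] [0, -1, -1, -1, -1, -1], mkRD 20 [0, -1, -1, -1, -1, 0] [1, -1,
    -1, 1, -1, 1] [0, -1, -1, -1, -1, 0], mkRD 21 [0, -1, -1, -1, 0, 0] [1, -1, -1, 0, 1, 0] [0,
    -1, -1, -1, 0, 0], mkRD 22 [0, -1, 0, -1, -1, -1] [0, -1, 1, 0, 0, -1] [0, -1, 0, -1, -1,
    -1], mkRD 23 [0, -1, 0, -1, -1, 0] [0, -1, 1, 0, -1, 1] [0, -1, 0, -1, -1, 0], mkRD 24 [0,
    -1, 0, -1, 0, 0] [0, -1, 1, -1, 1, 0] [0, -1, 0, -1, 0, 0], mkRD 25 [0, -1, 0, 0, 0, 0] [0,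
    -2, 0, 1, 0, 0] [0, -1, 0, 0, 0, 0], mkRD 26 [0, 0, -1, -1, -1, -1] [1, 1, -1, 0, 0, -1] [0,
    0, -1, -1, -1, -1], mkRD 27 [0, 0, -1, -1, -1, 0] [1, 1, -1, 0, -1, 1] [0, 0, -1, -1, -1, 0],
    mkRD 28 [0, 0, -1, -1, 0, 0] [1, 1, -1, -1, 1, 0] [0, 0, -1, -1, 0, 0], mkRD 29 [0, 0, -1, 0,
    0, 0] [1, 0, -2, 1, 0, 0] [0, 0, -1, 0, 0, 0], mkRD 30 [0, 0, 0, -1, -1, -1] [0, 1, 1, -1, 0,
    -1] [0, 0, 0, -1, -1, -1], mkRD 31 [0, 0, 0, -1, -1, 0] [0, 1, 1, -1, -1, 1] [0, 0, 0, -1,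
    -1, 0], mkRD 32 [0, 0, 0, -1, 0, 0] [0, 1, 1, -2, 1, 0] [0, 0, 0, -1, 0, 0], mkRD 33 [0, 0,
    0, 0, -1, -1] [0, 0, 0, 1, -1, -1] [0, 0, 0, 0, -1, -1], mkRD 34 [0, 0, 0, 0, -1, 0] [0, 0,
    0, 1, -2, 1] [0, 0, 0, 0, -1, 0], mkRD 35 [0, 0, 0, 0, 0, -1] [0, 0, 0, 0, 1, -2] [0, 0, 0,
    0, 0, -1], mkRD 36 [0, 0, 0, 0, 0, 1] [0, 0, 0, 0, -1, 2] [0, 0, 0, 0, 0, 1], mkRD 37 [0, 0,
    0, 0, 1, 0] [0, 0, 0, -1, 2, -1] [0, 0, 0, 0, 1, 0], mkRD 38 [0, 0, 0, 0, 1, 1] [0, 0, 0, -1,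
    1, 1] [0, 0, 0, 0, 1, 1], mkRD 39 [0, 0, 0, 1, 0, 0] [0, -1, -1, 2, -1, 0] [0, 0, 0, 1, 0,
    0], mkRD 40 [0, 0, 0, 1, 1, 0] [0, -1, -1, 1, 1, -1] [0, 0, 0, 1, 1, 0], mkRD 41 [0, 0, 0, 1,
    1, 1] [0, -1, -1, 1, 0, 1] [0, 0, 0, 1, 1, 1], mkRD 42 [0, 0, 1, 0, 0, 0] [-1, 0, 2, -1, 0,
    0] [0, 0, 1, 0, 0, 0], mkRD 43 [0, 0, 1, 1, 0, 0] [-1, -1, 1, 1, -1, 0] [0, 0, 1, 1, 0, 0],
    mkRD 44 [0, 0, 1, 1, 1, 0] [-1, -1, 1, 0, 1, -1] [0, 0, 1, 1, 1, 0], mkRD 45 [0, 0, 1, 1, 1,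
    1] [-1, -1, 1, 0, 0, 1] [0, 0, 1, 1, 1, 1], mkRD 46 [0, 1, 0, 0, 0, 0] [0, 2, 0, -1, 0, 0]
    [0, 1, 0, 0, 0, 0], mkRD 47 [0, 1, 0, 1, 0, 0] [0, 1, -1, 1, -1, 0] [0, 1, 0, 1, 0, 0], mkRD
    48 [0, 1, 0, 1, 1, 0] [0, 1, -1, 0, 1, -1] [0, 1, 0, 1, 1, 0], mkRD 49 [0, 1, 0, 1, 1, 1] [0,
    1, -1, 0, 0, 1] [0, 1, 0, 1, 1, 1], mkRD 50 [0, 1, 1, 1, 0, 0] [-1, 1, 1, 0, -1, 0] [0, 1, 1,
    1, 0, 0], mkRD 51 [0, 1, 1, 1, 1, 0] [-1, 1, 1, -1, 1, -1] [0, 1, 1, 1, 1, 0], mkRD 52 [0, 1,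
    1, 1, 1, 1] [-1, 1, 1, -1, 0, 1] [0, 1, 1, 1, 1, 1], mkRD 53 [0, 1, 1, 2, 1, 0] [-1, 0, 0, 1,
    0, -1] [0, 1, 1, 2, 1, 0], mkRD 54 [0, 1, 1, 2, 1, 1] [-1, 0, 0, 1, -1, 1] [0, 1, 1, 2, 1,
    1], mkRD 55 [0, 1, 1, 2, 2, 1] [-1, 0, 0, 0, 1, 0] [0, 1, 1, 2, 2, 1], mkRD 56 [1, 0, 0, 0,
    0, 0] [2, 0, -1, 0, 0, 0] [1, 0, 0, 0, 0, 0], mkRD 57 [1, 0, 1, 0, 0, 0] [1, 0, 1, -1, 0, 0]
    [1, 0, 1, 0, 0, 0], mkRD 58 [1, 0, 1, 1, 0, 0] [1, -1, 0, 1, -1, 0] [1, 0, 1, 1, 0, 0], mkRD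
    59 [1, 0, 1, 1, 1, 0] [1, -1, 0, 0, 1, -1] [1, 0, 1, 1, 1, 0], mkRD 60 [1, 0, 1, 1, 1, 1] [1,
    -1, 0, 0, 0, 1] [1, 0, 1, 1, 1, 1], mkRD 61 [1, 1, 1, 1, 0, 0] [1, 1, 0, 0, -1, 0] [1, 1, 1,
    1, 0, 0], mkRD 62 [1, 1, 1, 1, 1, 0] [1, 1, 0, -1, 1, -1] [1, 1, 1, 1, 1, 0], mkRD 63 [1, 1,
    1, 1, 1, 1] [1, 1, 0, -1, 0, 1] [1, 1, 1, 1, 1, 1], mkRD 64 [1, 1, 1, 2, 1, 0] [1, 0, -1, 1,
    0, -1] [1, 1, 1, 2, 1, 0], mkRD 65 [1, 1, 1, 2, 1, 1] [1, 0, -1, 1, -1, 1] [1, 1, 1, 2, 1,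
    1], mkRD 66 [1, 1, 1, 2, 2, 1] [1, 0, -1, 0, 1, 0] [1, 1, 1, 2, 2, 1], mkRD 67 [1, 1, 2, 2,
    1, 0] [0, 0, 1, 0, 0, -1] [1, 1, 2, 2, 1, 0], mkRD 68 [1, 1, 2, 2, 1, 1] [0, 0, 1, 0, -1, 1]
    [1, 1, 2, 2, 1, 1], mkRD 69 [1, 1, 2, 2, 2, 1] [0, 0, 1, -1, 1, 0] [1, 1, 2, 2, 2, 1], mkRD
    70 [1, 1, 2, 3, 2, 1] [0, -1, 0, 1, 0, 0] [1, 1, 2, 3, 2, 1], mkRD 71 [1, 2, 2, 3, 2, 1] [0,
    1, 0, 0, 0, 0] [1, 2, 2, 3, 2, 1]]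

/-- Root coordinates. -/
def rcE6 : List (List ℤ) := tabE6.map (·.2.2.2)

/-- The table of Cartan integers. -/
def carE6 : List (List (ℤ × ℤ)) :=
    [[], [(0, 0)], [(0, 0), (-1, -1)], [(-1, -1), (-1, -1), (0, 0)], [(-1, -1), (0, 0), (0, 0),
    (0, 0)], [(-1, -1), (0, 0), (0, 0), (0, 0), (0, 0)]]

theorem tabOKE6 : TabOK chevE6 rcE6 tabE6 carE6 := by decide +kernel

/-- A permutation of the roots. -/
def pA : List ℕ := [30, 61, 57, 31, 16, 62, 46, 26, 32, 17, 1, 63, 56, 27, 18, 28, 67, 50, 33, 42, 22, 5, 51, 35, 11, 6, 68, 58, 34, 23, 71, 64, 47, 69, 59, 52, 19, 12, 2, 24, 7, 0, 48, 37, 13, 3, 65, 60, 36, 20, 66, 49, 29, 38, 21, 4, 43, 53, 44, 15, 8, 70, 54, 39, 45, 25, 9, 55, 40, 14, 10, 41]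

/-- Two elements of the centralizer of `pA` in the Weyl group. -/
def pS (b : Bool) : List ℕ := if b then [4, 1, 12, 7, 13, 2, 0, 3, 9, 14, 10, 5, 11, 6, 15, 8, 27, 18, 28, 36, 49, 38, 20, 29, 21, 41, 31, 46, 32, 52, 16, 26, 17, 34, 47, 23, 48, 24, 37, 54, 45, 55, 19, 39, 25, 40, 30, 50, 42, 51, 33, 22, 35, 43, 53, 44, 63, 56, 65, 60, 66, 61, 57, 62, 68, 71, 69, 58, 64, 59, 70, 67]
  else [0, 16, 19, 2, 20, 17, 1, 18, 3, 21, 4, 26, 56, 27, 29, 28, 22, 5, 23, 8, 25, 9, 6, 24, 7, 10, 33, 58, 34, 39, 30, 57, 31, 35, 59, 11, 60, 12, 36, 40, 14, 41, 32, 37, 13, 38, 61, 64, 47, 65, 62, 46, 63, 48, 66, 49, 43, 42, 44, 15, 45, 67, 50, 68, 53, 70, 54, 51, 69, 52, 55, 71]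

/-- Values of the roots on a cocharacter. -/
def v1 : List ℕ := [0, 1, 4, 2, 1, 0, 3, 2, 1, 0, 3, 2, 1, 4, 2, 3, 2, 0, 4, 3, 2, 0, 4, 3, 1, 4, 4, 3, 1, 4, 0, 4, 2, 3, 2, 1, 4, 3, 2, 3, 1, 0, 1, 4, 2, 1, 1, 4, 2, 1, 0, 3, 2, 1, 0, 3, 2, 3, 1, 4, 3, 2, 0, 4, 3, 2, 0, 4, 3, 1, 4, 0]

/-- Values of the roots on a cocharacter. -/
def v2 : List ℕ := [1, 1, 1, 2, 4, 4, 0, 2, 0, 2, 3, 0, 2, 3, 3, 1, 3, 4, 1, 4, 1, 2, 2, 4, 0, 0, 4, 1, 2, 2, 2, 4, 0, 2, 4, 3, 2, 1, 3, 0, 1, 3, 3, 3, 4, 1, 0, 0, 1, 3, 3, 4, 1, 4, 1, 2, 4, 2, 2, 3, 0, 2, 3, 0, 3, 0, 1, 1, 3, 4, 4, 4]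

/-- The action on coordinates. -/
def act (p : ℕ × ℕ) (b : Bool) : ℕ × ℕ :=
  if b then ((0 * p.1 + 2 * p.2) % 5, (1 * p.1 + 4 * p.2) % 5)
  else ((2 * p.1 + 2 * p.2) % 5, (0 * p.1 + 1 * p.2) % 5)

theorem act_spec : ∀ g : Bool, ∀ a < (5 : ℕ), ∀ b < (5 : ℕ), ∀ i < 6,
    tbl (pS g) (chevE6.simple i) < 72 ∧ (tbl v1 (tbl (pS g) (chevE6.simple i)) * a +
      tbl v2 (tbl (pS g) (chevE6.simple i)) * b) % 5 = (tbl v1 (chevE6.simple i) * (act (a, b) g).1 +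
      tbl v2 (chevE6.simple i) * (act (a, b) g).2) % 5 := by decide +kernel

theorem act_trans : ∀ a < (5 : ℕ), ∀ b < (5 : ℕ), (a = 0 ∧ b = 0) ∨
    ∃ l ∈ [[], [false], [true], [false, false], [false, true], [true, false], [true, true], [false, false, false], [false, false, true], [false, true, false], [false, true, true], [true, false, false], [true, true, true], [false, false, false, true], [false, false, true, false], [false, false, true, true], [false, true, false, false], [true, false, false, false], [true, true, true, false], [false, false, false, true, false], [false, false, false, true, true], [false, false, true, false, false], [false, true, false, false, false], [true, true, true, false, true]], l.foldl act (1, 0) = (a, b) := by decide +kernel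

theorem v_spec : ∀ r < 72, (5 : ℤ) ∣ rval chevE6 [3, 0, 4, 4, 1, 0] r - tbl v1 r ∧
    (5 : ℤ) ∣ rval chevE6 [3, 4, 2, 3, 0, 1] r - tbl v2 r := by decide +kernel

/-- A permutation of the roots. -/
def pB : List ℕ := [11, 46, 47, 48, 26, 50, 51, 30, 53, 33, 35, 71, 61, 62, 64, 67, 12, 13, 1, 14, 2, 3, 15, 5, 6, 8, 49, 27, 28, 29, 52, 31, 32, 54, 34, 55, 16, 37, 17, 39, 40, 19, 42, 43, 44, 22, 63, 65, 66, 56, 68, 69, 57, 70, 58, 59, 4, 7, 9, 10, 0, 36, 38, 18, 41, 20, 21, 45, 23, 24, 25, 60]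

/-- The matrix of the square of `pB`. -/
def mB : List (List ℤ) := [[0, 0, -1, -1, -1, -1], [0, -1, -1, -2, -1, 0], [0, 0, 1, 0, 0, 0], [0, 0, 0, 1, 0, 0], [0, 0, 0, 0, 1, 0], [-1, 0, -1, -1, -1, 0]]

theorem search_B : search (okW carE6) (fun L => L.all (36 ≤ ·.1))
    (fun j => tabE6.filter fun s => (dot [1, 4, 3, 0, 3, 1] s.2.2.1 - [-1, 8, 5, -10, 5, -1].getD j 0) % 5 == 0 &&
      (!(2 ≤ j && j ≤ 4) || 36 ≤ s.1)) 6 [] = true := by decide +kernel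

/-- A subdiagram of type `A₃`. -/
def eJ (i : Fin 3) : Fin chevE6.rank := ⟨i + 2, Nat.add_lt_add_right i.2 2 |>.trans (by decide)⟩

variable {K : Type*} [Field K] [Fintype K] (hK : Fintype.card K = 4)
include hK

theorem isConj_five {z w : twistedE6 K 2} (hz : orderOf z = 5) (hw : orderOf w = 5) : IsConj z w := by
  have := finite_twE6_two hK
  have h5 : Fact (Nat.Prime 5) := ⟨by norm_num⟩
  obtain ⟨_, _, ζ, π, F, hζ, hpf⟩ := exists_frT hK (l := [0, 2, 1, 3, 4, 5, 0, 2, 1, 3, 4, 0, 2, 1, 3, 0, 2, 0])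
    (T := pA) (by decide +kernel) 5 (by norm_num)
  obtain ⟨x, x1, x2⟩ := F.exists_prime hpf (by norm_num) hζ (m := [3, 0, 4, 4, 1, 0]) (by decide +kernel)
  obtain ⟨y, y1, y2⟩ := F.exists_prime hpf (by norm_num) hζ (m := [3, 4, 2, 3, 0, 1]) (by decide +kernel)
  have h1 : ∀ a b : ℕ, ∃ c, F.j (x ^ a * y ^ b) = cE6.tg _ c ∧ ∀ r < 72,
      torChar chevE6 c r = ζ ^ ((tbl v1 r * a + tbl v2 r * b) % 5) := fun a b => by
    refine ⟨_, by rw [map_mul, map_pow, map_pow, x2, y2, ← map_pow, ← map_pow, ← map_mul],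
      fun r hr => ?_⟩
    obtain ⟨⟨u, e1⟩, v, e2⟩ := v_spec r hr
    rw [torChar_mul, torChar_pow, torChar_pow, torChar_zpow, torChar_zpow, ← zpow_natCast,
      ← zpow_natCast, ← zpow_mul, ← zpow_mul, ← zpow_add, eq_add_of_sub_eq e1, eq_add_of_sub_eq e2,
      hζ.eq_orderOf, pow_mod_orderOf, show (5 * u + tbl v1 r) * a + (5 * v + tbl v2 r) * b =
        (5 : ℕ) * (u * a + v * b) + ((tbl v1 r * a + tbl v2 r * b : ℕ) : ℤ) by push_cast; ring,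
      zpow_add, zpow_mul, zpow_natCast, hζ.pow_eq_one, one_zpow, one_mul, zpow_natCast]
  obtain ⟨M, h2, h3⟩ := exists_pair x1 y1 (F.inj (by
    rw [map_mul, map_mul, x2, y2, ← map_mul, ← map_mul, mul_comm])) fun a ha b hb e => by
    obtain ⟨c, e1, e2⟩ := h1 a b
    rw [e, map_one, eq_comm] at e1
    have e3 := fun r hr => hζ.pow_eq_one_iff_dvd _ |>.1 ((e2 r hr).symm.trans
      ((cE6.commute_tg_iff (r := ⟨r, hr⟩)).1 fun z _ => by rw [e1]; exact Commute.one_left z))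
    have e4 := e3 6 (by norm_num)
    have e5 := e3 0 (by norm_num)
    simp only [tbl, v1, v2, List.getD_cons_succ, List.getD_cons_zero] at e4 e5
    omega
  have h4 : ∀ (g : Bool) (p : ℕ × ℕ), p.1 < 5 → p.2 < 5 →
      IsConj (x ^ p.1 * y ^ p.2) (x ^ (act p g).1 * y ^ (act p g).2) := fun g p ha hb => by
    obtain ⟨n, hn⟩ := F.exists_conj_word hpf (w := if g then [5, 1, 3, 4, 3, 2, 1] else [0, 2, 3, 4, 2])
      (T := tbl (pS g)) (e := 4) (by norm_num) (by revert g; decide +kernel)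
    obtain ⟨c, e1, e2⟩ := h1 p.1 p.2
    obtain ⟨c', e3, e4⟩ := h1 (act p g).1 (act p g).2
    obtain ⟨d, e5, e6⟩ := hn _ c e1
    refine isConj_iff.2 ⟨n⁻¹, F.inj ?_⟩
    rw [inv_inv, e5, e3, tg_eq_iff]
    intro i
    have hi := cE6.V.basic.simple_lt i i.2
    obtain ⟨e7, e8⟩ := act_spec g _ ha _ hb i i.2
    rw [e6 _ hi, e2 _ e7, e8, e4 _ hi]
  have h6 : ∀ (l : List Bool) (p : ℕ × ℕ), p.1 < 5 → p.2 < 5 →
      IsConj (x ^ p.1 * y ^ p.2) (x ^ (l.foldl act p).1 * y ^ (l.foldl act p).2) := fun l => by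
    induction l with
    | nil => exact fun _ _ _ => IsConj.refl _
    | cons g l ih => exact fun p ha hb => (h4 g p ha hb).trans (ih _
      (by unfold act; split_ifs <;> exact Nat.mod_lt _ (by norm_num))
      (by unfold act; split_ifs <;> exact Nat.mod_lt _ (by norm_num)))
  have h7 : ∀ z : twistedE6 K 2, orderOf z = 5 → IsConj (x ^ 1 * y ^ 0) z := fun z hz => by
    obtain ⟨g, hg⟩ := exists_conj_le (r := 5) (M := M) (fun e => by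
      have := mul_dvd_mul_left (5 * 5) e
      rw [← h2, Subgroup.card_mul_index, h2, card_twE6_two hK] at this
      norm_num at this) (isPGroup_zpowers (hz ▸ pow_orderOf_eq_one z))
    obtain ⟨a, ha, b, hb, e⟩ := h3 _ (hg z (Subgroup.mem_zpowers z))
    obtain ⟨l, -, e'⟩ := (act_trans a ha b hb).resolve_left (by
      rintro ⟨rfl, rfl⟩
      obtain rfl : z = 1 := by simpa using e.symm
      simp at hz)
    have := h6 l (1, 0) (by norm_num) (by norm_num)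
    rw [e', e] at this
    exact this.trans (isConj_iff.2 ⟨g, rfl⟩).symm
  exact (h7 z hz).symm.trans (h7 w hw)

omit hK in
theorem stab_B {k : Type*} [Field k] {ζ : kˣ} (hζ : IsPrimitiveRoot ζ 5) (w : Perm (Fin chevE6.nroots))
    (hw : w ∈ cE6.S.W) (w1 : ∀ r : Fin chevE6.nroots,
      torChar chevE6 (fun i => ζ ^ ([1, 4, 3, 0, 3, 1] : List ℤ).getD i 0) (w r) =
      torChar chevE6 (fun i => ζ ^ ([1, 4, 3, 0, 3, 1] : List ℤ).getD i 0) r)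
    (w2 : ∀ j ∈ Set.range eJ, cE6.S.pos (w (cE6.S.α j))) : w = 1 := by
  have h4 : ∀ r < 72, chevE6.IsPosRoot r ↔ 36 ≤ r := by decide +kernel
  have := cE6.leaf tabOKE6 hw (fun j => ?_) search_B
  · refine cE6.S.eq_one_of_pos hw fun j => (cE6.pos_iff _).2 ((h4 _ (Fin.is_lt _)).2 ?_)
    rw [← List.all_reverse, reverse_pre, List.all_eq_true] at this
    simpa [rd, cE6.img_val] using this _ (List.mem_map_of_mem (List.mem_range.2 j.2))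
  have e := w1 (cE6.R.simple j)
  rw [torChar_zpow, torChar_zpow, ← mul_inv_eq_one, ← zpow_sub, hζ.zpow_eq_one_iff_dvd,
    cE6.simple_val] at e
  simp only [Bool.and_eq_true, beq_iff_eq, Bool.or_eq_true, Bool.not_eq_true',
    decide_eq_true_eq, Cert.dot_wt (D := chevE6) (v := [1, 4, 3, 0, 3, 1]) rcE6 rfl]
  refine ⟨Int.emod_eq_zero_of_dvd ?_, (em (j ∈ Set.range eJ)).symm.imp ?_ fun h => ?_⟩
  · convert e using 2
    · rfl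
    · rw [rval, Finset.sum_range]; rfl
    · clear e; revert j; decide +kernel
  · clear e; revert j; decide +kernel
  · exact (h4 _ (Fin.is_lt _)).1 ((cE6.pos_iff _).1 (w2 j h))

omit hK in
theorem levi_equiv : Nonempty ((cE6.split (ZMod 2)).U (cE6.S.Phi (Set.range eJ)) ≃*
    alternatingGroup (Fin 8)) := by
  obtain ⟨f, hf⟩ := Cert.exists_hom_SL H35.slChk_E6 (by norm_num) eJ (by decide +kernel) (by decide +kernel)
    (Cert.center_U_two (C := cE6) _)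
  obtain ⟨e'⟩ := S0256.aux
  let f' := (QuotientGroup.lift _ f fun z hz => (Cert.center_U_two _).le
    (Subgroup.mem_center_iff.2 fun s => by
      obtain ⟨s, rfl⟩ := hf s
      rw [← map_mul, ← map_mul, Subgroup.mem_center_iff.1 hz])).comp e'.symm.toMonoidHom
  have hs : Function.Surjective f' := fun s => by
    obtain ⟨s, rfl⟩ := hf s
    exact ⟨e' s, by simp only [f', MonoidHom.comp_apply, MulEquiv.coe_toMonoidHom,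
      MulEquiv.symm_apply_apply]; rfl⟩
  have := alternatingGroup.isSimpleGroup (α := Fin 8) (by simp)
  refine ⟨(MulEquiv.ofBijective f' ⟨(MonoidHom.ker_eq_bot_iff _).1
    ((MonoidHom.normal_ker f').eq_bot_or_eq_top.resolve_right fun h => ?_), hs⟩).symm⟩
  obtain ⟨s, hs⟩ := hs ⟨_, Split.mem_U (cE6.S.α_mem_Phi (Set.mem_range_self 0)) (xg_mem_X _ 1)⟩
  exact one_ne_zero ((xg_eq_one_iff (C := cE6) (Fin.is_lt _)).1
    (congrArg Subtype.val (hs.symm.trans (h.ge (Subgroup.mem_top s)))))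

omit hK in
theorem rep_B {π : Perm (Fin chevE6.nroots)} (hpf : ∀ r, (π r : ℕ) = tbl pB r) :
    Rep chevE6 (toM _ mB) (π * π) := fun r => funext fun i => by
  rw [Perm.mul_apply, hpf, hpf]; revert r i; decide +kernel

omit hK in
theorem tor_B {k Γ : Type*} [Field k] [CharP k 2] [Group Γ] {π : Perm (Fin chevE6.nroots)}
    (F : Fr cE6 k π Γ) (hpf : ∀ r, (π r : ℕ) = tbl pB r) {ζ : kˣ}
    (hζ : ∀ x : kˣ, x ^ 5 = 1 → ∃ a : ℤ, ζ ^ a = x) {c : Fin chevE6.rank → kˣ}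
    (h1 : F.σ (cE6.tg k c) = cE6.tg k c) (h2 : pull (toM _ mB) c = c ^ 4) :
    ∃ a : ℤ, cE6.tg k (fun i => ζ ^ ([1, 4, 3, 0, 3, 1] : List ℤ).getD i 0) ^ a = cE6.tg k c := by
  obtain ⟨a, ha⟩ := hζ (torChar chevE6 c 0) (by
    rw [torChar_eq_evw, ← zpow_natCast, ← evw_smul]
    exact F.evw_eq_one hpf h1 h2 (a := [1, 0, 0, 1, -1, 0, -1, 1, -1, -1, 1, 0]) (by decide +kernel))
  refine ⟨a, ?_⟩
  rw [← map_zpow, tg_eq_iff]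
  intro i
  have e := F.evw_eq_one hpf h1 h2 (u := wtD chevE6 (chevE6.simple i) +
    (-rval chevE6 [1, 4, 3, 0, 3, 1] (chevE6.simple i)) • wtD chevE6 0)
    (a := [[2, 0, 1, -1, 0, 0, -3, 1, -2, 1, 0, -1], [-6, -1, 1, 0, 0, 2, 5, -2, 1, 0, 0, 0], [-5, 0, 1, -1, 1, 1, 5, -1, 1, 2, 0, 1], [6, 1, 0, 0, -1, -1, -6, 2, -3, -1, 1, -1], [-1, 0, 0, 0, -1, 1, 1, -1, 1, 1, 1, 0], [-2, 0, 0, 0, 1, 0, 2, 0, 1, 0, -1, 0]].getD i []) (by revert i; decide +kernel)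
  rw [evw_add, evw_smul, ← torChar_eq_evw, ← torChar_eq_evw, ← ha, zpow_neg, mul_inv_eq_one] at e
  rw [e, ← zpow_mul, mul_comm, zpow_mul, ← torChar_zpow]
  simp only [torChar, Pi.pow_apply, ← Finset.prod_zpow, ← zpow_mul, mul_right_comm]

theorem exists_cent_five : ∃ x : twistedE6 K 2, orderOf x = 5 ∧
    Nonempty (Subgroup.centralizer ({x} : Set (twistedE6 K 2)) ≃*
      Multiplicative (ZMod 5) × alternatingGroup (Fin 8)) := by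
  have := charP_of_card_four hK
  have h5 : Fact (Nat.Prime 5) := ⟨by norm_num⟩
  obtain ⟨π, F, h1, h2⟩ := exists_frE6 hK (algebraMap K (AlgebraicClosure K))
    (l := [1, 3, 4, 2, 3, 0, 2, 1, 3, 4, 5, 4, 3, 2, 0]) (by decide)
  have hpf : ∀ r, (π r : ℕ) = tbl pB r := fun r => (h1 r).trans (by revert r; decide +kernel)
  obtain ⟨ζ, hζ, hζ'⟩ := exists_prim_unit (AlgebraicClosure K) (N := 5) (by
    rw [Ne, CharP.cast_eq_zero_iff _ 2]; norm_num)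
  obtain ⟨x, x1, x2⟩ := F.exists_prime hpf (by norm_num) hζ (m := [1, 4, 3, 0, 3, 1]) (by decide +kernel)
  have hE : Set.range eJ = {j | j.1 ∈ [2, 3, 4]} := Set.ext (by decide +kernel)
  have h3 : ∀ r < 72, ((5 : ℤ) ∣ rval chevE6 [1, 4, 3, 0, 3, 1] r ↔ InJ chevE6 [2, 3, 4] r) ∧
    (InJ chevE6 [2, 3, 4] r → tbl pB r = r) := by decide +kernel
  have hJ : ∀ r ∈ cE6.S.Phi (Set.range eJ), π r = r := fun r hr =>
    Fin.ext ((hpf r).trans ((h3 r r.2).2 (mem_Phi_list.1 (hE ▸ hr))))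
  have h0 : ∀ r : Fin chevE6.nroots, torChar chevE6 (fun i => ζ ^ ([1, 4, 3, 0, 3, 1] : List ℤ).getD i 0) r
      = 1 ↔ r ∈ cE6.S.Phi (Set.range eJ) := fun r => by
    rw [torChar_zpow, hζ.zpow_eq_one_iff_dvd, hE, mem_Phi_list]; exact (h3 r r.2).1
  obtain ⟨ψ, hψ⟩ := F.exists_emb hJ
  obtain ⟨e'⟩ := levi_equiv
  obtain ⟨e⟩ := exists_cent_equiv x1 ψ (fun a b e => Subtype.ext (cE6.V.fieldHom_injective _
    ((hψ a).symm.trans ((congrArg F.j e).trans (hψ b))))) (Cert.center_U_two _) (fun l => F.inj (by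
      rw [map_mul, map_mul, hψ, x2]
      exact (Subgroup.mem_centralizer_singleton_iff.1 (Fr.emb2_le (fun r hr =>
        Subgroup.mem_centralizer_singleton_iff.2 (cE6.commute_tg_iff.2 ((h0 r).2 hr) _
          (xg_mem_X r 1)).eq.symm) l.2)).symm)) fun g hg => by
    obtain ⟨d, d1, l, d2, d3⟩ := F.cent_decomp hJ x2 h0 (stab_B hζ) hg
    obtain ⟨c, c1, c2⟩ := h2 _ (rep_B hpf) d
      ⟨g * (ψ ⟨l, d2⟩)⁻¹, by rw [map_mul, map_inv, hψ, d3, mul_inv_cancel_right]⟩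
    obtain ⟨a, ha⟩ := tor_B F hpf hζ' (by rwa [c1]) c2
    exact ⟨x ^ a, ⟨_, rfl⟩, ⟨l, d2⟩, F.inj (by rw [map_mul, map_zpow, hψ, x2, d3, ha, c1])⟩
  exact ⟨x, x1, ⟨e.trans (MulEquiv.prodCongr (MulEquiv.refl _) e')⟩⟩

end Cfsg.Agent.H34.Five
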