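import Mathlib

/-! Groups whose proper subgroups all fix a point in one of two transitive actions. -/

set_option autoImplicit false

namespace Cfsg.Agent.H34.TwoMax

open Subgroup MulAction

universe u

section
variable {G : Type u} [Group G] [Finite G] {X Y : Type u} [MulAction G X] [MulAction G Y]

/-- no fixed point -/
def Big (Y : Type u) [MulAction G Y] (R : Subgroup G) : Prop := ∀ y : Y, ¬ R ≤ stabilizer G y

theorem grow {q : ℕ} [Fact q.Prime] {R P : Subgroup G} (hP : IsPGroup q P) (h : R < P) :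
    ∃ u ∈ P, u ∉ R ∧ u ∈ normalizer (R : Set G) := by
  have := hP.isNilpotent
  have nc : NormalizerCondition P := Group.normalizerCondition_of_isNilpotent
  have lt : R.subgroupOf P < ⊤ := by
    rw [lt_top_iff_ne_top, Ne, subgroupOf_eq_top]
    exact h.not_ge
  obtain ⟨u, hu, hn⟩ := SetLike.exists_of_lt (nc _ lt)
  refine ⟨u, u.2, hn, mem_normalizer_fintype fun r hr => ?_⟩
  exact (mem_normalizer_iff.1 hu ⟨r, h.le hr⟩).1 hr

theorem one_fix [IsPretransitive G X] [Nonempty Y] {q : ℕ} [Fact q.Prime]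
    (cov : ∀ H : Subgroup G, H ≠ ⊤ → Big Y H → ∃ x : X, H ≤ stabilizer G x)
    (hO : ∀ R : Subgroup G, IsPGroup q R → R.Normal → R = ⊥) :
    ∀ R : Subgroup G, IsPGroup q R → Big Y R → ∀ x x' : X, R ≤ stabilizer G x →
      R ≤ stabilizer G x' → x = x' := by
  intro R
  induction R using WellFoundedGT.induction with
  | ind R ih =>
  intro hR hb x x' hx hx'
  have hN : normalizer (R : Set G) ≠ ⊤ := by
    intro e
    have := hO R hR (normalizer_eq_top_iff.1 e)
    exact hb (Classical.arbitrary Y) (this ▸ bot_le)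
  obtain ⟨x0, h0⟩ := cov _ hN fun y hy => hb y (le_normalizer.trans hy)
  have key : ∀ w : X, R ≤ stabilizer G w → w = x0 := by
    intro w hw
    obtain ⟨P, hP⟩ := (hR.comap_subtype (K := stabilizer G w)).exists_le_sylow
    have hle : R ≤ (P : Subgroup (stabilizer G w)).map (stabilizer G w).subtype :=
      fun r hr => ⟨⟨r, hw hr⟩, hP hr, rfl⟩
    have hp' : IsPGroup q ((P : Subgroup (stabilizer G w)).map (stabilizer G w).subtype) :=
      P.isPGroup'.map _
    rcases hle.lt_or_eq with lt | e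
    · obtain ⟨u, hu, hn, hz⟩ := grow hp' lt
      have l1 : R ⊔ zpowers u ≤ (P : Subgroup (stabilizer G w)).map (stabilizer G w).subtype :=
        sup_le hle (zpowers_le.2 hu)
      refine ih (R ⊔ zpowers u) ?_ (hp'.to_le l1) (fun y hy => hb y (le_sup_left.trans hy)) w x0
        (l1.trans (map_subtype_le _)) ((sup_le le_normalizer (zpowers_le.2 hz)).trans h0)
      exact lt_of_le_of_ne le_sup_left fun e => hn (e ▸ mem_sup_right (mem_zpowers u))
    · obtain ⟨g, hg⟩ := exists_smul_eq G x0 w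
      have hR2 : IsPGroup q (R.map (MulAut.conj g).toMonoidHom) := hR.map _
      obtain ⟨P2, hP2⟩ := (hR2.comap_subtype (K := stabilizer G w)).exists_le_sylow
      obtain ⟨h, hh⟩ := exists_smul_eq (stabilizer G w) P2 P
      have hm : (h : G) * g ∈ normalizer (R : Set G) := by
        refine mem_normalizer_fintype fun r hr => ?_
        have m1 : g * r * g⁻¹ ∈ stabilizer G w := by
          have : r • x0 = x0 := h0 (le_normalizer hr)
          rw [mem_stabilizer_iff, ← hg, mul_smul, mul_smul, inv_smul_smul, this]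
        have m2 : (⟨g * r * g⁻¹, m1⟩ : stabilizer G w) ∈ (P2 : Subgroup (stabilizer G w)) :=
          hP2 ⟨r, hr, rfl⟩
        have m3 : h * ⟨g * r * g⁻¹, m1⟩ * h⁻¹ ∈ (P : Subgroup (stabilizer G w)) := by
          rw [← hh, Sylow.smul_def, Sylow.pointwise_smul_def]
          exact smul_mem_pointwise_smul _ (MulAut.conj h) _ m2
        have m4 : (h : G) * (g * r * g⁻¹) * (h : G)⁻¹ ∈ R := by
          rw [e]
          exact ⟨_, m3, rfl⟩
        have : (h : G) * g * r * ((h : G) * g)⁻¹ = (h : G) * (g * r * g⁻¹) * (h : G)⁻¹ := by group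
        rw [this]
        exact m4
      have e1 : ((h : G) * g) • x0 = x0 := h0 hm
      rw [mul_smul, hg] at e1
      exact (h.2 : (h : G) • w = w).symm.trans e1
  rw [key x hx, key x' hx']

theorem cnt {Q : Type u} [Group Q] [Finite Q] [MulAction Q X] [Finite X] (x0 : X) (m : ℕ)
    (h0 : ∀ g : Q, g • x0 = x0) (h : ∀ x, x ≠ x0 → m ∣ (stabilizer Q x).index) :
    m ∣ Nat.card X - 1 := by
  classical
  have := Fintype.ofFinite (orbitRel.Quotient Q X)
  rw [Nat.card_congr (selfEquivSigmaOrbits' Q X), Nat.card_sigma,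
    ← Finset.add_sum_erase _ _ (Finset.mem_univ (Quotient.mk'' x0 : orbitRel.Quotient Q X))]
  have e : Nat.card (orbitRel.Quotient.orbit (Quotient.mk'' x0 : orbitRel.Quotient Q X)) = 1 := by
    rw [orbitRel.Quotient.orbit_mk, Nat.card_coe_set_eq, ← index_stabilizer, index_eq_one,
      eq_top_iff]
    exact fun g _ => h0 g
  rw [e, Nat.add_sub_cancel_left]
  refine Finset.dvd_sum fun w hw => ?_
  induction w using Quotient.inductionOn' with
  | h x =>
    rw [orbitRel.Quotient.orbit_mk, Nat.card_coe_set_eq, ← index_stabilizer]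
    exact h x fun e => (Finset.mem_erase.1 hw).1 (by rw [e])

theorem dvd [IsPretransitive G X] [IsPretransitive G Y] [Finite X] [Nonempty Y] [Nontrivial G]
    (cov : ∀ H : Subgroup G, H ≠ ⊤ → Big Y H → ∃ x : X, H ≤ stabilizer G x)
    (hO : ∀ q : ℕ, q.Prime → ∀ R : Subgroup G, IsPGroup q R → R.Normal → R = ⊥) :
    Nat.card Y ∣ Nat.card X - 1 := by
  rw [Nat.dvd_iff_prime_pow_dvd_dvd]
  intro q k hq hk
  rcases Nat.eq_zero_or_pos k with rfl | kp
  · simp
  have : Fact q.Prime := ⟨hq⟩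
  obtain ⟨Q⟩ : Nonempty (Sylow q G) := inferInstance
  have small : ∀ R : Subgroup G, IsPGroup q R → ¬ Big Y R → Nat.card R * q ^ k ∣ Nat.card Q := by
    intro R hR hb
    simp only [Big, not_forall, not_not] at hb
    obtain ⟨y, hy⟩ := hb
    obtain ⟨j, hj⟩ := IsPGroup.iff_card.1 hR
    rw [hj, ← pow_add]
    apply Sylow.pow_dvd_card_of_pow_dvd_card
    rw [pow_add, ← hj, ← (stabilizer G y).card_mul_index, index_stabilizer_of_transitive]
    exact Nat.mul_dvd_mul (card_dvd_of_le hy) hk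
  have bQ : Big Y (Q : Subgroup G) := by
    by_contra hb
    have h1 := small _ Q.isPGroup' hb
    have h2 : q ^ k ∣ 1 := Nat.dvd_of_mul_dvd_mul_left Nat.card_pos (by rwa [mul_one])
    exact absurd (Nat.dvd_one.1 h2) (Nat.one_lt_pow kp.ne' hq.one_lt).ne'
  have nQ : (Q : Subgroup G) ≠ ⊤ := by
    intro e
    have := hO q hq _ Q.isPGroup' (e ▸ inferInstance)
    rw [e] at this
    exact top_ne_bot this
  obtain ⟨x0, h0⟩ := cov _ nQ bQ
  refine cnt (Q := (Q : Subgroup G)) x0 _ (fun g => h0 g.2) fun x hx => ?_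
  have hR : IsPGroup q ((stabilizer (Q : Subgroup G) x).map (Q : Subgroup G).subtype) :=
    Q.isPGroup'.to_le (map_subtype_le _)
  have h1 := small _ hR fun hb => hx (one_fix cov (hO q hq) _ hR hb x x0
    (by rintro _ ⟨g, hg, rfl⟩; exact hg) ((map_subtype_le _).trans h0))
  rw [card_map_of_injective (subtype_injective _),
    ← (stabilizer (Q : Subgroup G) x).card_mul_index] at h1
  exact Nat.dvd_of_mul_dvd_mul_left Nat.card_pos h1

end

/-- every proper subgroup is conjugate into one of two proper subgroups -/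
def Cov {G : Type u} [Group G] (M N : Subgroup G) : Prop := ∀ H : Subgroup G, H ≠ ⊤ →
  ∃ g : G, (M ≠ ⊤ ∧ ∀ h ∈ H, g⁻¹ * h * g ∈ M) ∨ (N ≠ ⊤ ∧ ∀ h ∈ H, g⁻¹ * h * g ∈ N)

theorem st {G : Type u} [Group G] {M H : Subgroup G} {g : G} (h : ∀ h ∈ H, g⁻¹ * h * g ∈ M) :
    H ≤ stabilizer G (g : G ⧸ M) := by
  intro k hk
  rw [mem_stabilizer_iff, Quotient.smul_mk, smul_eq_mul, eq_comm, QuotientGroup.eq, ← mul_assoc]
  exact h k hk

theorem exn {G : Type u} [Group G] [Finite G] [Nontrivial G] {M N : Subgroup G} (hM : M ≠ ⊤)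
    (hN : N ≠ ⊤) (c : Cov M N) :
    ∃ q : ℕ, q.Prime ∧ ∃ R : Subgroup G, IsPGroup q R ∧ R.Normal ∧ R ≠ ⊥ := by
  by_contra hn
  have hO : ∀ q : ℕ, q.Prime → ∀ R : Subgroup G, IsPGroup q R → R.Normal → R = ⊥ := by
    intro q hq R h1 h2
    by_contra h3
    exact hn ⟨q, hq, R, h1, h2, h3⟩
  have d1 := dvd (G := G) (X := G ⧸ M) (Y := G ⧸ N) (fun H hH hb => by
    obtain ⟨g, h | h⟩ := c H hH
    · exact ⟨_, st h.2⟩
    · exact absurd (st h.2) (hb _)) hO
  have d2 := dvd (G := G) (X := G ⧸ N) (Y := G ⧸ M) (fun H hH hb => by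
    obtain ⟨g, h | h⟩ := c H hH
    · exact absurd (st h.2) (hb _)
    · exact ⟨_, st h.2⟩) hO
  have a1 : 1 < Nat.card (G ⧸ M) := one_lt_index_of_ne_top hM
  have a2 : 1 < Nat.card (G ⧸ N) := one_lt_index_of_ne_top hN
  have l1 := Nat.le_of_dvd (by omega) d1
  have l2 := Nat.le_of_dvd (by omega) d2
  omega

theorem cov_quot {G : Type u} [Group G] {M N : Subgroup G} (c : Cov M N) (R : Subgroup G)
    [R.Normal] : Cov (M.map (QuotientGroup.mk' R)) (N.map (QuotientGroup.mk' R)) := by
  intro H hH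
  have sj := QuotientGroup.mk'_surjective R
  have h1 : H.comap (QuotientGroup.mk' R) ≠ ⊤ := fun e => hH (by
    rw [← map_comap_eq_self_of_surjective sj H, e, map_top_of_surjective _ sj])
  have aux : ∀ (L : Subgroup G) (g : G), (L ≠ ⊤ ∧ ∀ h ∈ H.comap (QuotientGroup.mk' R),
      g⁻¹ * h * g ∈ L) → L.map (QuotientGroup.mk' R) ≠ ⊤ ∧ ∀ h ∈ H,
      (QuotientGroup.mk' R g)⁻¹ * h * QuotientGroup.mk' R g ∈ L.map (QuotientGroup.mk' R) := by
    intro L g ⟨hL, hg⟩
    constructor
    · intro e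
      have hk : (QuotientGroup.mk' R).ker ≤ L := by
        intro r hr
        have h2 : g * r * g⁻¹ ∈ (QuotientGroup.mk' R).ker := Normal.conj_mem inferInstance r hr g
        have h3 := hg (g * r * g⁻¹) (by rw [mem_comap, MonoidHom.mem_ker.1 h2]; exact H.one_mem)
        have : g⁻¹ * (g * r * g⁻¹) * g = r := by group
        rwa [this] at h3
      apply hL
      rw [← comap_map_eq_self hk, e, comap_top]
    · intro h hh
      obtain ⟨k, rfl⟩ := sj h
      exact ⟨_, hg k hh, by simp⟩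
  obtain ⟨g, h | h⟩ := c _ h1
  · exact ⟨_, Or.inl (aux M g h)⟩
  · exact ⟨_, Or.inr (aux N g h)⟩

theorem sol (n : ℕ) : ∀ (G : Type u) [Group G] [Finite G], Nat.card G = n →
    ∀ M N : Subgroup G, Cov M N → Group.IsSolvable G := by
  induction n using Nat.strong_induction_on with
  | _ n ih =>
  intro G _ _ hn M N c
  rcases subsingleton_or_nontrivial G with hs | hs
  · infer_instance
  have ex : ∃ q : ℕ, q.Prime ∧ ∃ R : Subgroup G, IsPGroup q R ∧ R.Normal ∧ R ≠ ⊥ := by
    by_cases hM : M = ⊤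
    · have hN : N ≠ ⊤ := by
        obtain ⟨g, h | h⟩ := c ⊥ bot_ne_top
        · exact absurd hM h.1
        · exact h.1
      refine exn hN hN fun H hH => ?_
      obtain ⟨g, h | h⟩ := c H hH
      · exact absurd hM h.1
      · exact ⟨g, Or.inl h⟩
    · by_cases hN : N = ⊤
      · refine exn hM hM fun H hH => ?_
        obtain ⟨g, h | h⟩ := c H hH
        · exact ⟨g, Or.inl h⟩
        · exact absurd hN h.1
      · exact exn hM hN c
  obtain ⟨q, hq, R, h1, h2, h3⟩ := ex
  have : Fact q.Prime := ⟨hq⟩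
  have := h1.isNilpotent
  have lt : Nat.card (G ⧸ R) < n := by
    rw [← hn, ← R.card_mul_index]
    have : 1 < Nat.card R := (one_lt_card_iff_ne_bot R).2 h3
    have h4 : 0 < R.index := Nat.pos_of_ne_zero index_ne_zero_of_finite
    show R.index < _
    nlinarith
  have := ih _ lt (G ⧸ R) rfl _ _ (cov_quot c R)
  exact Group.isSolvable_of_ker_le_range R.subtype (QuotientGroup.mk' R) (by simp)

end Cfsg.Agent.H34.TwoMax
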